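import Mathlib
import Cfsg.Agent.Lib.Helper2.OddIdx
import Cfsg.Agent.BlockLib.Idempotent

/-!
# Galois automorphisms of `2`-power order and the principal `2`-block
-/

set_option autoImplicit false

namespace Cfsg.Agent.Lib.Helper2

open Cfsg Cfsg.Agent.CharLib Cfsg.Agent.BlockLib Finset
open scoped ComplexConjugate

universe u

/-- a power map of `2`-power order -/
structure PS (G : Type*) [Group G] (k e : ℕ) : Prop where
  cop : k.Coprime (Nat.card G)
  pw : ∀ g : G, g ^ (k ^ (2 ^ e)) = g

namespace PS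

variable {G : Type u} [Group G] {k e : ℕ}

/-- the Galois conjugate of an irreducible character -/
noncomputable def sig [Finite G] (h : PS G k e) (χ : IrrCharacter G) : IrrCharacter G :=
  ⟨fun g => (χ : G → ℂ) (g ^ k), Cfsg.Agent.Lib.Helper10.isIrrCharacter_pow χ.2 k h.cop⟩

theorem sig_apply [Finite G] (h : PS G k e) (χ : IrrCharacter G) (g : G) :
    (h.sig χ : G → ℂ) g = (χ : G → ℂ) (g ^ k) := rfl

theorem sig_iter_apply [Finite G] (h : PS G k e) (j : ℕ) : ∀ (χ : IrrCharacter G) (g : G),
    ((h.sig)^[j] χ : G → ℂ) g = (χ : G → ℂ) (g ^ (k ^ j)) := by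
  induction j with
  | zero => intro χ g; simp
  | succ j ih =>
    intro χ g
    rw [Function.iterate_succ_apply, ih, h.sig_apply, ← pow_mul, ← pow_succ]

theorem sig_iter [Finite G] (h : PS G k e) : (h.sig)^[2 ^ e] = id := by
  funext χ
  apply Subtype.ext
  funext g
  rw [h.sig_iter_apply, h.pw]
  rfl

theorem sig_eq_iff [Finite G] (h : PS G k e) (χ : IrrCharacter G) :
    h.sig χ = χ ↔ ∀ g, (χ : G → ℂ) (g ^ k) = (χ : G → ℂ) g := by
  constructor
  · intro h1 g
    exact congrArg (fun ψ : IrrCharacter G => (ψ : G → ℂ) g) h1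
  · intro h1
    exact Subtype.ext (funext h1)

theorem centralizer_pow (h : PS G k e) (g : G) :
    Subgroup.centralizer ({g ^ k} : Set G) = Subgroup.centralizer ({g} : Set G) := by
  ext x
  rw [Subgroup.mem_centralizer_singleton_iff, Subgroup.mem_centralizer_singleton_iff]
  constructor
  · intro hx
    have h1 : Commute x (g ^ k) := hx
    have h2 : Commute x ((g ^ k) ^ (k ^ (2 ^ e - 1))) := h1.pow_right _
    rw [← pow_mul, ← pow_succ', Nat.sub_add_cancel Nat.one_le_two_pow, h.pw] at h2
    exact h2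
  · intro hx
    have h1 : Commute x g := hx
    exact h1.pow_right k

theorem sig_mem_principal [Finite G] (h : PS G k e) {M : Ideal AlgInt} {χ : IrrCharacter G}
    (hχ : χ ∈ principalBlock M G) : h.sig χ ∈ principalBlock M G := by
  intro g
  have h1 := hχ (g ^ k)
  simp only [centralChar, h.centralizer_pow] at h1 ⊢
  rw [h.sig_apply, h.sig_apply, one_pow]
  exact h1

theorem sig_mem_principal_iff [Finite G] (h : PS G k e) {M : Ideal AlgInt} (χ : IrrCharacter G) :
    h.sig χ ∈ principalBlock M G ↔ χ ∈ principalBlock M G := by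
  refine ⟨fun hχ => ?_, h.sig_mem_principal⟩
  have h1 : ∀ (j : ℕ) (ψ : IrrCharacter G), ψ ∈ principalBlock M G →
      (h.sig)^[j] ψ ∈ principalBlock M G := by
    intro j
    induction j with
    | zero => intro ψ hψ; exact hψ
    | succ j ih => intro ψ hψ; rw [Function.iterate_succ_apply]; exact ih _ (h.sig_mem_principal hψ)
  have h2 := h1 (2 ^ e - 1) _ hχ
  rw [← Function.iterate_succ_apply, Nat.succ_eq_add_one, Nat.sub_add_cancel Nat.one_le_two_pow,
    h.sig_iter] at h2
  exact h2

theorem charDegree_sig [Finite G] (h : PS G k e) (χ : IrrCharacter G) :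
    charDegree (h.sig χ : G → ℂ) = charDegree (χ : G → ℂ) := by
  unfold charDegree
  rw [h.sig_apply, one_pow]

end PS

/-- the sum of the squares of the degrees in the principal `p`-block is divisible by `p`
when `p` divides the group order -/
theorem dvd_sum_sq_principal {G : Type u} [Group G] [Fintype G] {p : ℕ} {M : Ideal AlgInt}
    (hM : IsPModular p M) (hp : p ∣ Nat.card G) [DecidablePred (· ∈ principalBlock M G)] :
    p ∣ ∑ χ ∈ univ.filter (fun χ : IrrCharacter G => χ ∈ principalBlock M G),
      charDegree (χ : G → ℂ) ^ 2 := by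
  classical
  haveI := isPrime_of_isPModular hM
  have h1 := memLocalRing_blockCoeff_principal (M := M) (1 : G)
  rw [blockCoeff, finsum_mem_eq_finite_toFinset_sum _ (Set.toFinite _)] at h1
  have h2 : ∑ χ ∈ (Set.toFinite (principalBlock M G)).toFinset,
      (χ : G → ℂ) 1 * conj ((χ : G → ℂ) 1) =
      ((∑ χ ∈ univ.filter (fun χ : IrrCharacter G => χ ∈ principalBlock M G),
        charDegree (χ : G → ℂ) ^ 2 : ℕ) : ℂ) := by
    rw [Nat.cast_sum]
    refine Finset.sum_congr ?_ fun χ _ => ?_
    · ext χ; simp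
    · rw [Cfsg.Agent.H25.charDegree_irr χ, Complex.conj_natCast]
      push_cast
      ring
  rw [h2] at h1
  rw [← memLocalIdeal_natCast_iff hM]
  have h3 : MemLocalIdeal M (Nat.card G : ℂ) := (memLocalIdeal_natCast_iff hM _).mpr hp
  have h4 := memLocalIdeal_mul_right h3 h1
  rwa [← mul_assoc, mul_inv_cancel₀ (by exact_mod_cast Nat.card_pos.ne'), one_mul] at h4

/-- parity of the number of fixed odd-degree characters in the principal `2`-block -/
theorem even_card_fixed_principal {G : Type u} [Group G] [Finite G] {k e : ℕ} (h : PS G k e)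
    {M : Ideal AlgInt} (hM : IsPModular 2 M) (hev : Even (Nat.card G)) :
    Even (Nat.card {χ : IrrCharacter G // χ ∈ principalBlock M G ∧
      Odd (charDegree (χ : G → ℂ)) ∧ ∀ g : G, (χ : G → ℂ) (g ^ k) = (χ : G → ℂ) g}) := by
  classical
  cases nonempty_fintype G
  set w : IrrCharacter G → ZMod 2 := fun χ =>
    if χ ∈ principalBlock M G then ((charDegree (χ : G → ℂ) ^ 2 : ℕ) : ZMod 2) else 0 with hw
  have hwσ : ∀ χ, w (h.sig χ) = w χ := by
    intro χ
    simp only [hw, h.sig_mem_principal_iff, h.charDegree_sig]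
  have h1 := sum_fixed_mod_two e h.sig h.sig_iter w hwσ
  have h2 : ∑ χ, w χ = 0 := by
    simp only [hw]
    rw [← Finset.sum_filter, ← Nat.cast_sum, ZMod.natCast_eq_zero_iff_even]
    exact (even_iff_two_dvd).mpr (dvd_sum_sq_principal hM (even_iff_two_dvd.mp hev))
  rw [h2] at h1
  have h3 : ∀ χ : IrrCharacter G, w χ =
      if (χ ∈ principalBlock M G ∧ Odd (charDegree (χ : G → ℂ))) then 1 else 0 := by
    intro χ
    simp only [hw]
    by_cases hB : χ ∈ principalBlock M G
    · by_cases ho : Odd (charDegree (χ : G → ℂ))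
      · rw [if_pos hB, if_pos ⟨hB, ho⟩]
        have : Odd (charDegree (χ : G → ℂ) ^ 2) := ho.pow
        exact (ZMod.natCast_eq_one_iff_odd).mpr this
      · rw [if_pos hB, if_neg (fun h => ho h.2)]
        have : Even (charDegree (χ : G → ℂ) ^ 2) :=
          (Nat.not_odd_iff_even.mp ho).pow_of_ne_zero (by norm_num)
        exact (ZMod.natCast_eq_zero_iff_even).mpr this
    · rw [if_neg hB, if_neg (fun h => hB h.1)]
  rw [Finset.sum_congr rfl (fun χ _ => h3 χ), Finset.sum_boole, Finset.filter_filter] at h1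
  have h4 := (ZMod.natCast_eq_zero_iff_even).mp h1.symm
  rw [Nat.card_eq_fintype_card, Fintype.card_subtype]
  convert h4 using 2
  ext χ
  simp only [Finset.mem_filter, Finset.mem_univ, true_and, h.sig_eq_iff]
  tauto

end Cfsg.Agent.Lib.Helper2
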