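import Mathlib
import Cfsg.Agent.Lib.Helper2.OddIdx
import Cfsg.Agent.Lib.Helper23.FS

/-!
# Frobenius–Schur indicators over a normal subgroup of odd index
-/

set_option autoImplicit false

namespace Cfsg.Agent.Lib.Helper2

open Cfsg Cfsg.Agent.CharLib Cfsg.Agent.CharLib.H2 Cfsg.Agent.Lib.Helper23 Finset
open scoped ComplexConjugate

universe u

variable {G : Type u} [Group G] [Fintype G]

/-- complex conjugation as a power map -/
theorem ks_conj : KS G (2 * Nat.card G - 1) 1 := by
  have hpos : 0 < Nat.card G := Nat.card_pos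
  obtain ⟨k, hk⟩ : ∃ k, 2 * Nat.card G - 1 = k := ⟨_, rfl⟩
  have hk1 : k + 1 = 2 * Nat.card G := by omega
  rw [hk]
  have hinv : ∀ g : G, g ^ k = g⁻¹ := by
    intro g
    apply eq_inv_of_mul_eq_one_left
    rw [← pow_succ, hk1, mul_comm, pow_mul, pow_card_eq_one']
    simp
  refine ⟨?_, ?_, fun g _ => hinv g⟩
  · have h1 : Nat.Coprime k (1 + k) := Nat.coprime_add_self_right.mpr (Nat.coprime_one_right k)
    rw [add_comm, hk1] at h1
    exact h1.coprime_dvd_right (Dvd.intro_left 2 rfl)
  · intro g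
    rw [pow_one, pow_two, pow_mul, hinv, hinv, inv_inv]

theorem ks_conj_pow (g : G) : g ^ (2 * Nat.card G - 1) = g⁻¹ := by
  have hpos : 0 < Nat.card G := Nat.card_pos
  apply eq_inv_of_mul_eq_one_left
  rw [← pow_succ, Nat.sub_add_cancel (by omega), mul_comm, pow_mul, pow_card_eq_one']
  simp

theorem fixed_iff_real {χ : G → ℂ} (hχ : IsCharacter G χ) :
    (∀ g, χ (g ^ (2 * Nat.card G - 1)) = χ g) ↔ ∀ g, (χ g).im = 0 := by
  constructor
  · intro h g
    have := h g
    rw [ks_conj_pow, isCharacter_inv hχ] at this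
    exact Complex.conj_eq_iff_im.mp this
  · intro h g
    rw [ks_conj_pow, isCharacter_inv hχ]
    exact Complex.conj_eq_iff_im.mpr (h g)

theorem sq_mem_iff (N : Subgroup G) [N.Normal] (hodd : Odd N.index) (s : G) :
    s * s ∈ N ↔ s ∈ N := by
  constructor
  · intro h
    have h1 : ((s : G ⧸ N)) ^ 2 = 1 := by
      rw [pow_two, ← QuotientGroup.mk_mul]
      exact (QuotientGroup.eq_one_iff _).mpr h
    have h2 : orderOf (s : G ⧸ N) ∣ 2 := orderOf_dvd_of_pow_eq_one h1
    have h3 : orderOf (s : G ⧸ N) ∣ N.index := by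
      rw [Subgroup.index_eq_card]
      exact orderOf_dvd_natCard _
    have h4 : orderOf (s : G ⧸ N) = 1 :=
      Nat.eq_one_of_dvd_coprimes (Nat.coprime_two_left.mpr hodd) h2 h3
    exact (QuotientGroup.eq_one_iff _).mp (orderOf_eq_one_iff.mp h4)
  · exact fun h => N.mul_mem h h

/-- the number of square roots -/
noncomputable def sqf (X : Type*) [Group X] [Fintype X] [DecidableEq X] : X → ℂ :=
  fun g => ∑ s : X, if s * s = g then 1 else 0

theorem isClassFunction_sqf [DecidableEq G] : IsClassFunction G (sqf G) := by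
  intro g h
  show ∑ s : G, (if s * s = h * g * h⁻¹ then (1 : ℂ) else 0) = ∑ s : G, if s * s = g then 1 else 0
  refine Fintype.sum_equiv (MulAut.conj h⁻¹).toEquiv _ _ ?_
  intro s
  simp only [MulEquiv.toEquiv_eq_coe, MulEquiv.coe_toEquiv, MulAut.conj_apply, inv_inv]
  have : s * s = h * g * h⁻¹ ↔ h⁻¹ * s * h * (h⁻¹ * s * h) = g := by
    constructor
    · intro e
      calc h⁻¹ * s * h * (h⁻¹ * s * h) = h⁻¹ * (s * s) * h := by group
        _ = g := by rw [e]; group
    · intro e
      rw [← e]; group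
  simp only [this]

theorem classInner_sqf [DecidableEq G] (χ : G → ℂ) :
    classInner (sqf G) χ = conj (FS.ind χ) := by
  rw [classInner, FS.ind, map_mul, map_inv₀, Complex.conj_natCast, map_sum]
  congr 1
  simp only [sqf, Finset.sum_mul]
  rw [Finset.sum_comm]
  refine Finset.sum_congr rfl fun s _ => ?_
  simp

theorem sqf_res [DecidableEq G] (N : Subgroup G) [N.Normal] [Fintype N] (hodd : Odd N.index) (n : N) :
    sqf G (n : G) = sqf N n := by
  simp only [sqf]
  have h1 : ∀ s : G, (if s * s = (n : G) then (1 : ℂ) else 0) =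
      extendByZero N (fun _ => (1 : ℂ)) s * (if s * s = (n : G) then (1 : ℂ) else 0) := by
    intro s
    by_cases hs : s ∈ N
    · rw [extendByZero_of_mem N _ hs, one_mul]
    · rw [extendByZero_of_not_mem N _ hs, zero_mul, if_neg]
      intro h
      apply hs
      rw [← sq_mem_iff N hodd, h]
      exact n.2
  rw [Finset.sum_congr rfl (fun s _ => h1 s), sum_extendByZero_mul]
  refine Finset.sum_congr rfl fun s _ => ?_
  rw [one_mul]
  have : ((s : G) * (s : G) = (n : G)) ↔ s * s = n := by
    rw [← Subgroup.coe_mul, Subtype.ext_iff]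
  simp only [this]

/-- the indicator formula over a normal subgroup of odd index -/
theorem sum_ind_mul (N : Subgroup G) [N.Normal] [Fintype N] (hodd : Odd N.index) (φ : N → ℂ) :
    ∑ χ : IrrCharacter G, conj (FS.ind (χ : G → ℂ)) * classInner (fun n : N => (χ : G → ℂ) n) φ =
      conj (FS.ind φ) := by
  classical
  rw [← classInner_sqf φ]
  have h1 : sqf N = fun n : N => sqf G (n : G) := funext fun n => (sqf_res N hodd n).symm
  have h2 := classFunction_eq_sum (isClassFunction_sqf (G := G))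
  have h3 : (fun n : N => sqf G (n : G)) =
      ∑ χ : IrrCharacter G, conj (FS.ind (χ : G → ℂ)) • (fun n : N => (χ : G → ℂ) n) := by
    funext n
    have := congrFun h2 (n : G)
    rw [this]
    simp only [Finset.sum_apply, Pi.smul_apply, classInner_sqf]
  rw [h1, h3, classInner_sum_left]
  refine Finset.sum_congr rfl fun χ _ => ?_
  rw [classInner_smul_left]

/-- strongly real characters over a normal subgroup of odd index -/
theorem fs_unique (N : Subgroup G) [hN : N.Normal] [Fintype N] (hodd : Odd N.index)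
    (φ : IrrCharacter N) (hφ : FS.ind (φ : N → ℂ) = 1) :
    ∃! χ : IrrCharacter G, FS.ind (χ : G → ℂ) = 1 ∧
      classInner (fun n : N => (χ : G → ℂ) n) (φ : N → ℂ) ≠ 0 := by
  classical
  have hks := ks_conj (G := G)
  have hreal : ∀ {X : Type u} [Group X] [Fintype X] (ψ : IrrCharacter X),
      FS.ind (ψ : X → ℂ) ≠ 0 → ∀ x, ((ψ : X → ℂ) x).im = 0 := by
    intro X _ _ ψ h0 x
    by_contra hx
    exact h0 ((FS.ind_irr ψ.2).2.mpr ⟨x, hx⟩)
  have hφr := hreal φ (by rw [hφ]; exact one_ne_zero)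
  have hφk : ∀ n : N, (φ : N → ℂ) (n ^ (2 * Nat.card G - 1)) = (φ : N → ℂ) n := by
    intro n
    have : n ^ (2 * Nat.card G - 1) = n⁻¹ := Subtype.ext (by simpa using ks_conj_pow (n : G))
    rw [this, isCharacter_inv (isCharacter_of_irr φ.2)]
    exact Complex.conj_eq_iff_im.mpr (hφr n)
  obtain ⟨χ, hχ1, hχ2⟩ := exists_fixed hks N hodd φ.2 hφk
  have huniq : ∀ χ' : IrrCharacter G, FS.ind (χ' : G → ℂ) ≠ 0 →
      classInner (fun n : N => (χ' : G → ℂ) n) (φ : N → ℂ) ≠ 0 → χ' = χ := by
    intro χ' h1 h2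
    exact fixed_unique hks N hodd φ.2 h2 hχ1
      ((fixed_iff_real (isCharacter_of_irr χ'.2)).mpr (hreal χ' h1)) hχ2
  have hsum := sum_ind_mul N hodd (φ : N → ℂ)
  rw [Finset.sum_eq_single χ, hφ, map_one] at hsum
  · obtain ⟨m, hm⟩ := classInner_char_nat (isCharacter_restrict (isCharacter_of_irr χ.2) N)
      (isCharacter_of_irr φ.2)
    have hind : FS.ind (χ : G → ℂ) = 1 := by
      change classInner (fun n : N => (χ : G → ℂ) n) (φ : N → ℂ) = m at hm
      rw [hm] at hsum
      rcases (FS.ind_irr χ.2).1 with h | h | h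
      · rw [h] at hsum; simp at hsum
      · exact h
      · exfalso
        rw [h] at hsum
        simp only [map_neg, map_one, neg_mul, one_mul] at hsum
        have h2 : ((m : ℂ) + 1) = 0 := by rw [← hsum]; ring
        have h3 : ((m + 1 : ℕ) : ℂ) = 0 := by exact_mod_cast h2
        exact absurd (Nat.cast_eq_zero.mp h3) (Nat.succ_ne_zero m)
    refine ⟨χ, ⟨hind, hχ1⟩, ?_⟩
    rintro χ' ⟨h1, h2⟩
    exact huniq χ' (by rw [h1]; exact one_ne_zero) h2
  · intro χ' _ hne
    by_cases h1 : FS.ind (χ' : G → ℂ) = 0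
    · rw [h1]; simp
    · by_cases h2 : classInner (fun n : N => (χ' : G → ℂ) n) (φ : N → ℂ) = 0
      · rw [h2, mul_zero]
      · exact absurd (huniq χ' h1 h2) hne
  · intro h; exact absurd (Finset.mem_univ _) h

end Cfsg.Agent.Lib.Helper2
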