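import Mathlib
import Cfsg.Agent.Lib.Helper2.OddIdx
import Cfsg.Agent.Lib.Helper2.GrCent2
import Cfsg.Agent.Lib.Helper23.CharDeg
import Cfsg.Agent.Lib.Helper10.LinIrr
import Cfsg.Agent.CharLib.Sub

/-!
# The intersection of the kernels of the characters of degree prime to `p`: basic tools
-/

set_option autoImplicit false

namespace Cfsg.Agent.Lib.Helper2.PKer

open Cfsg Cfsg.Agent.CharLib Cfsg.Agent.CharLib.H2 Cfsg.Agent.BlockLib
open scoped ComplexConjugate

universe u

variable {G : Type u} [Group G] [Fintype G]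

theorem ker_mul {χ : G → ℂ} (hχ : IsCharacter G χ) {a : G} (ha : χ a = χ 1) (g : G) :
    χ (a * g) = χ g := by
  obtain ⟨n, ρ, rfl⟩ := hχ
  have h1 : ρ a = 1 := (character_eq_finrank_iff ρ a).mp (by rw [ha, Representation.char_one])
  show LinearMap.trace ℂ _ (ρ (a * g)) = LinearMap.trace ℂ _ (ρ g)
  rw [map_mul, h1, one_mul]

theorem hom_eq_one_of_ker (H : Subgroup G) [Fintype H] {χ : G → ℂ} (hχ : IsCharacter G χ)
    (l : H →* ℂˣ)
    (hne : classInner (fun h : H => ((l h : ℂˣ) : ℂ)) (fun h : H => χ h) ≠ 0) {y : H}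
    (hy : χ y = χ 1) : l y = 1 := by
  have hS0 : ∑ h : H, ((l h : ℂˣ) : ℂ) * conj (χ h) ≠ 0 := by
    intro h0; apply hne; rw [classInner, h0, mul_zero]
  have h1 : ((l y : ℂˣ) : ℂ) * ∑ h : H, ((l h : ℂˣ) : ℂ) * conj (χ h) =
      ∑ h : H, ((l h : ℂˣ) : ℂ) * conj (χ h) := by
    rw [Finset.mul_sum]
    refine Fintype.sum_equiv (Equiv.mulLeft y) _ _ fun h => ?_
    simp only [Equiv.coe_mulLeft]
    rw [map_mul, Units.val_mul, Subgroup.coe_mul, ker_mul hχ hy]; ring
  have h2 : ((l y : ℂˣ) : ℂ) = 1 := by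
    apply mul_right_cancel₀ hS0
    rw [one_mul]; exact h1
  exact Units.ext h2

theorem hom_eq_one_of_pKer {p : ℕ} [Fact p.Prime] (H : Subgroup G) (hH : ¬ p ∣ H.index) {y : H}
    (hy : ∀ χ : IrrCharacter G, ¬ p ∣ charDegree (χ : G → ℂ) →
      (χ : G → ℂ) y = (χ : G → ℂ) 1) (l : H →* ℂˣ) : l y = 1 := by
  classical
  haveI : Fintype H := Fintype.ofFinite _
  have hp : p.Prime := Fact.out
  have hψ : IsCharacter G (indFun H (fun h => ((l h : ℂˣ) : ℂ))) :=
    isCharacter_indFun H (isCharacter_of_irr (isIrrCharacter_of_hom l))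
  obtain ⟨m, hm, hm2⟩ := exists_mult hψ
  have h1 : (H.index : ℂ) = ∑ χ : IrrCharacter G, (m χ : ℂ) * (charDegree (χ : G → ℂ) : ℂ) := by
    have := congrFun hm 1
    rw [indFun_apply_one, map_one, Units.val_one, mul_one, Finset.sum_apply] at this
    rw [this]; refine Finset.sum_congr rfl fun χ _ => ?_
    rw [Pi.smul_apply, smul_eq_mul, Cfsg.Agent.Lib.Helper23.charDegree_cast_irr]
  have h2 : H.index = ∑ χ : IrrCharacter G, m χ * charDegree (χ : G → ℂ) := by exact_mod_cast h1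
  obtain ⟨χ, hχ⟩ : ∃ χ : IrrCharacter G, ¬ p ∣ m χ * charDegree (χ : G → ℂ) := by
    by_contra hcon
    push_neg at hcon
    exact hH (h2 ▸ Finset.dvd_sum fun χ _ => hcon χ)
  have hm0 : m χ ≠ 0 := by
    intro h0; apply hχ; rw [h0, zero_mul]; exact dvd_zero p
  have hdeg : ¬ p ∣ charDegree (χ : G → ℂ) := fun h => hχ (Dvd.dvd.mul_left h _)
  apply hom_eq_one_of_ker H (isCharacter_of_irr χ.2) l _ (hy χ hdeg)
  rw [← frobenius_reciprocity H _ (isClassFunction_of_irr χ.2), hm2 χ]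
  exact_mod_cast hm0

theorem sum_mul_shift {χ : G → ℂ} (hχ : IsIrrCharacter G χ) {f : G → ℂ}
    (hf : IsClassFunction G f) (x : G) : ∑ g, f g * χ (g * x) = omega χ f * χ x := by
  obtain ⟨n, ρ, hρ, rfl⟩ := hχ
  haveI := hρ
  have h1 := opSum_irr' ρ hf
  have h2 := congrArg (fun T => LinearMap.trace ℂ (Fin n → ℂ) (T * ρ x)) h1
  simp only [opSum, Finset.sum_mul, map_sum, smul_mul_assoc, map_smul, one_mul, smul_eq_mul,
    ← map_mul] at h2
  exact h2

theorem le_ker_of_shift {χ : G → ℂ} (hχ : IsIrrCharacter G χ) (P : Subgroup G) [Fintype P]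
    (w : P → ℂ) (hS : ∑ y : P, w y * χ y ≠ 0) (L : Subgroup G) [hL : L.Normal]
    (hst : ∀ g ∈ L, ∑ y : P, w y * χ (g * y) = ∑ y : P, w y * χ y) (g : G) (hg : g ∈ L) :
    χ g = χ 1 := by
  classical
  haveI : Fintype L := Fintype.ofFinite _
  let f : G → ℂ := fun g => if g ∈ L then 1 else 0
  have hf : IsClassFunction G f := by
    intro x c
    have : c * x * c⁻¹ ∈ L ↔ x ∈ L := by
      constructor
      · intro h
        have := hL.conj_mem _ h c⁻¹
        simpa [mul_assoc] using this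
      · intro h; exact hL.conj_mem _ h c
    simp only [f, this]
  have hfs : ∑ g, f g = (Nat.card L : ℂ) := by
    rw [GrCent.sum_eq_sum_subgroup L f (fun x hx => by simp [f, hx])]
    simp [f, Nat.card_eq_fintype_card]
  have h1 : ∑ g, f g * ∑ y : P, w y * χ (g * y) = (Nat.card L : ℂ) * ∑ y : P, w y * χ y := by
    have : ∀ g, f g * ∑ y : P, w y * χ (g * y) = f g * ∑ y : P, w y * χ y := by
      intro g; by_cases hg : g ∈ L
      · rw [hst g hg]
      · simp [f, hg]
    rw [Finset.sum_congr rfl fun g _ => this g, ← Finset.sum_mul, hfs]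
  have h2 : ∑ g, f g * ∑ y : P, w y * χ (g * y) = omega χ f * ∑ y : P, w y * χ y := by
    simp only [Finset.mul_sum]
    rw [Finset.sum_comm]
    refine Finset.sum_congr rfl fun y _ => ?_
    have := sum_mul_shift hχ hf (y : G)
    calc ∑ g, f g * (w y * χ (g * y)) = w y * ∑ g, f g * χ (g * y) := by
          rw [Finset.mul_sum]; refine Finset.sum_congr rfl fun g _ => by ring
      _ = omega χ f * (w y * χ y) := by rw [this]; ring
  have h3 : omega χ f = Nat.card L := mul_right_cancel₀ hS (h2.symm.trans h1)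
  have hχ1 : χ 1 ≠ 0 := irr_apply_one_ne_zero ⟨χ, hχ⟩
  have h4 : ∑ n : L, χ n = (Nat.card L : ℂ) * χ 1 := by
    have h5 := GrCent.sum_eq_sum_subgroup L (fun g => f g * χ g) (fun x hx => by simp [f, hx])
    have h6 : ∑ x : L, f x * χ x = ∑ n : L, χ n :=
      Finset.sum_congr rfl fun x _ => by simp [f]
    rw [← h6, ← h5, ← h3, omega, div_mul_cancel₀ _ hχ1]
  have hne : classInner (indFun L (fun _ => (1 : ℂ))) χ ≠ 0 := by
    rw [frobenius_reciprocity L _ (isClassFunction_of_irr hχ), classInner]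
    have h7 : ∑ n : L, (1 : ℂ) * conj (χ n) = conj (∑ n : L, χ n) := by
      rw [map_sum]; exact Finset.sum_congr rfl fun x _ => by rw [one_mul]
    rw [h7, h4]
    have hc : (Nat.card L : ℂ) ≠ 0 := by exact_mod_cast Nat.card_pos.ne'
    simp [hc, hχ1]
  exact const_of_over_one L hχ hne ⟨g, hg⟩

end Cfsg.Agent.Lib.Helper2.PKer
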