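import Mathlib
import Cfsg.Agent.Lib.Helper2.PKer1
import Cfsg.Agent.Lib.Helper2.GlauStep
import Cfsg.Agent.Lib.Helper10.InvCons
import Cfsg.Agent.Lib.Helper23.DefectZero

/-!
# The intersection of the kernels of the characters of degree prime to `p`: lower bound
-/

set_option autoImplicit false

namespace Cfsg.Agent.Lib.Helper2.PKer

open Cfsg Cfsg.Agent.CharLib Cfsg.Agent.CharLib.H2 Cfsg.Agent.BlockLib
open scoped ComplexConjugate

universe u

variable {G : Type u} [Group G] [Fintype G] {p : ℕ} [Fact p.Prime]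

theorem nrm_of_normal (N S : Subgroup G) [hN : N.Normal] : Nrm N S :=
  fun s _ g hg => hN.conj_mem g hg s

theorem not_dvd_card_of_fpf (N S : Subgroup G) [hN : N.Normal] (hS : IsPGroup p S)
    (hfpf : N ⊓ Subgroup.centralizer (S : Set G) = ⊥) : ¬ p ∣ Nat.card N := by
  have hn := nrm_of_normal N S
  letI := conjAct hn
  have h1 := hS.card_modEq_card_fixedPoints N
  have h2 : Nat.card (MulAction.fixedPoints S N) = 1 := by
    rw [Nat.card_eq_one_iff_unique]
    refine ⟨⟨fun a b => ?_⟩, ⟨⟨1, fun s => ?_⟩⟩⟩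
    · have ha : ((a : N) : G) ∈ N ⊓ Subgroup.centralizer (S : Set G) :=
        (mem_fixed_iff hn a.1).mp (fun s => a.2 s)
      have hb : ((b : N) : G) ∈ N ⊓ Subgroup.centralizer (S : Set G) :=
        (mem_fixed_iff hn b.1).mp (fun s => b.2 s)
      rw [hfpf, Subgroup.mem_bot] at ha hb
      exact Subtype.ext (Subtype.ext (ha.trans hb.symm))
    · exact Subtype.ext (by
        show (s : G) * ((1 : N) : G) * (s : G)⁻¹ = ((1 : N) : G)
        simp)
  rw [h2] at h1
  intro hdvd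
  have h3 := (Nat.modEq_zero_iff_dvd.mpr hdvd).symm.trans h1
  have h4 : p ∣ 1 := Nat.modEq_zero_iff_dvd.mp h3.symm
  exact (Fact.out : p.Prime).one_lt.ne' (Nat.dvd_one.mp h4)

theorem exists_inv_constituent (N S : Subgroup G) [hN : N.Normal] [Fintype N] (hS : IsPGroup p S)
    (χ : IrrCharacter G) (hdeg : ¬ p ∣ charDegree (χ : G → ℂ)) :
    ∃ θ : IrrCharacter N, SInv N S (θ : N → ℂ) ∧
      classInner (fun n : N => (χ : G → ℂ) n) (θ : N → ℂ) ≠ 0 := by
  classical
  have hp : p.Prime := Fact.out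
  obtain ⟨M, hM⟩ := Cfsg.Agent.Lib.Helper23.exists_isPModular p hp
  haveI := isPrime_of_isPModular hM
  have hne := ne_top_of_isPModular hM
  have hn := nrm_of_normal N S
  letI := irrAct hn
  set F : N → ℂ := fun n : N => (χ : G → ℂ) n with hF
  have hFc : IsCharacter N F := isCharacter_restrict (isCharacter_of_irr χ.2) N
  have hFinv : SInv N S F := by
    intro s _ g g' hg
    show (χ : G → ℂ) g' = (χ : G → ℂ) g
    rw [hg]; exact isClassFunction_of_irr χ.2 g s
  let f : IrrCharacter N → ℂ := fun θ => classInner F θ * (θ : N → ℂ) 1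
  have hsum : ∑ θ, f θ = (χ : G → ℂ) 1 := by
    have h1 := congrFun (classFunction_eq_sum (isClassFunction_of_char hFc)) 1
    rw [Finset.sum_apply] at h1
    have h2 : F 1 = (χ : G → ℂ) 1 := rfl
    rw [← h2, h1]
    rfl
  have key := memLocalIdeal_sum_sub_sum_fixed hM hS f (fun g θ => by
      show classInner F (irrConj hn g θ : N → ℂ) * (irrConj hn g θ : N → ℂ) 1 = _
      rw [Cfsg.Agent.Lib.Helper10.classInner_irrConj hn hFinv, irrConj_apply, map_one]) (fun θ => by
      obtain ⟨a, ha⟩ := classInner_char_nat hFc (isCharacter_of_irr θ.2)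
      obtain ⟨b, -, hb, -⟩ := L.irr_degree_dvd θ
      show MemLocalRing M (classInner F θ * (θ : N → ℂ) 1)
      rw [ha, hb]
      exact memLocalRing_mul (memLocalRing_natCast hne a) (memLocalRing_natCast hne b))
  by_contra hcon
  push_neg at hcon
  have key2 : MemLocalIdeal M (∑ x, f x - 0) := by
    convert key using 2
    symm
    apply Finset.sum_eq_zero
    intro θ hθ
    have h0 : ∀ g : S, g • θ = θ := by simpa using hθ
    have h1 : SInv N S (θ : N → ℂ) := (sInv_iff_irrConj hn θ).mpr h0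
    show classInner F θ * (θ : N → ℂ) 1 = 0
    rw [hcon θ h1, zero_mul]
  rw [sub_zero, hsum, ← Cfsg.Agent.Lib.Helper23.charDegree_cast_irr,
    memLocalIdeal_natCast_iff hM] at key2
  exact hdeg key2

theorem le_ker_of_fpf (N : Subgroup G) [hN : N.Normal] (P : Sylow p G)
    (hfpf : N ⊓ Subgroup.centralizer ((P : Subgroup G) : Set G) = ⊥) (χ : IrrCharacter G)
    (hdeg : ¬ p ∣ charDegree (χ : G → ℂ)) (n : N) : (χ : G → ℂ) n = (χ : G → ℂ) 1 := by
  classical
  haveI : Fintype N := Fintype.ofFinite _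
  have hp : p.Prime := Fact.out
  obtain ⟨θ, hθinv, hθne⟩ := exists_inv_constituent N (P : Subgroup G) P.2 χ hdeg
  have hn := nrm_of_normal N (P : Subgroup G)
  have hcop : (Nat.card N).Coprime (Nat.card (P : Subgroup G)) := by
    obtain ⟨k, hk⟩ := IsPGroup.iff_card.mp P.2
    rw [hk]
    exact Nat.Coprime.pow_right _ ((Nat.Prime.coprime_iff_not_dvd hp).mpr
      (not_dvd_card_of_fpf N (P : Subgroup G) P.2 hfpf)).symm
  haveI : Group.IsNilpotent (P : Subgroup G) := P.2.isNilpotent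
  have hcard := card_sInv_eq hn hcop inferInstance
  rw [hfpf] at hcard
  have h1 : Nat.card (IrrCharacter ↥(⊥ : Subgroup G)) = 1 := by
    rw [card_irrCharacter, Nat.card_eq_one_iff_unique]
    refine ⟨⟨fun a b => ?_⟩, ⟨ConjClasses.mk 1⟩⟩
    obtain ⟨x, rfl⟩ := ConjClasses.exists_rep a
    obtain ⟨y, rfl⟩ := ConjClasses.exists_rep b
    rw [Subsingleton.elim x y]
  rw [h1] at hcard
  haveI hsub := (Nat.card_eq_one_iff_unique.mp hcard).1
  have heq : (⟨θ, hθinv⟩ : {χ : IrrCharacter N // SInv N (P : Subgroup G) (χ : N → ℂ)}) =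
      ⟨⟨fun _ => 1, isIrrCharacter_one⟩, fun _ _ _ _ _ => rfl⟩ := Subsingleton.elim _ _
  have hθ1 : (θ : N → ℂ) = fun _ => 1 := congrArg (fun x => (x.1 : N → ℂ)) heq
  apply const_of_over_one N χ.2 _ n
  rw [frobenius_reciprocity N _ (isClassFunction_of_irr χ.2)]
  rw [hθ1] at hθne
  intro h0
  apply hθne
  rw [← classInner_conj_symm, h0, map_zero]

theorem exists_linear_constituent (P : Sylow p G) [Fintype (P : Subgroup G)] (χ : IrrCharacter G)
    (hdeg : ¬ p ∣ charDegree (χ : G → ℂ)) :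
    ∃ l : (P : Subgroup G) →* ℂˣ, classInner (fun y : (P : Subgroup G) => (χ : G → ℂ) y)
      (fun y => ((l y : ℂˣ) : ℂ)) ≠ 0 := by
  classical
  have hp : p.Prime := Fact.out
  have hψ : IsCharacter (P : Subgroup G) (fun y : (P : Subgroup G) => (χ : G → ℂ) y) :=
    isCharacter_restrict (isCharacter_of_irr χ.2) _
  obtain ⟨m, hm, hm2⟩ := exists_mult hψ
  have h1 : (charDegree (χ : G → ℂ) : ℂ) = ∑ ν : IrrCharacter (P : Subgroup G),
      (m ν : ℂ) * (charDegree (ν : ↥(P : Subgroup G) → ℂ) : ℂ) := by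
    have := congrFun hm 1
    rw [Finset.sum_apply] at this
    rw [Cfsg.Agent.Lib.Helper23.charDegree_cast_irr]
    refine Eq.trans this (Finset.sum_congr rfl fun ν _ => ?_)
    rw [Pi.smul_apply, smul_eq_mul, Cfsg.Agent.Lib.Helper23.charDegree_cast_irr]
  have h2 : charDegree (χ : G → ℂ) = ∑ ν : IrrCharacter (P : Subgroup G),
      m ν * charDegree (ν : ↥(P : Subgroup G) → ℂ) := by exact_mod_cast h1
  obtain ⟨ν, hν⟩ : ∃ ν : IrrCharacter (P : Subgroup G),
      ¬ p ∣ m ν * charDegree (ν : ↥(P : Subgroup G) → ℂ) := by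
    by_contra hcon
    push_neg at hcon
    exact hdeg (h2 ▸ Finset.dvd_sum fun ν _ => hcon ν)
  have hm0 : m ν ≠ 0 := by
    intro h0; apply hν; rw [h0, zero_mul]; exact dvd_zero p
  have hdν : ¬ p ∣ charDegree (ν : ↥(P : Subgroup G) → ℂ) := fun h => hν (Dvd.dvd.mul_left h _)
  obtain ⟨n, -, hn1, hn2⟩ := L.irr_degree_dvd ν
  have hnd : charDegree (ν : ↥(P : Subgroup G) → ℂ) = n := by
    have := Cfsg.Agent.Lib.Helper23.charDegree_cast_irr ν
    rw [hn1] at this
    exact_mod_cast this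
  obtain ⟨k, hk⟩ := IsPGroup.iff_card.mp P.2
  rw [hk] at hn2
  obtain ⟨j, -, hj⟩ := (Nat.dvd_prime_pow hp).1 hn2
  have hj0 : j = 0 := by
    by_contra h0
    apply hdν
    rw [hnd, hj]
    exact dvd_pow_self p h0
  have hν1 : (ν : ↥(P : Subgroup G) → ℂ) 1 = 1 := by rw [hn1, hj, hj0]; simp
  have hmul := L.irr_mul_of_apply_one_eq_one ν hν1
  let f : (P : Subgroup G) →* ℂ := { toFun := ν, map_one' := hν1, map_mul' := hmul }
  refine ⟨f.toHomUnits, ?_⟩
  have e : (fun y => ((f.toHomUnits y : ℂˣ) : ℂ)) = (ν : ↥(P : Subgroup G) → ℂ) := rfl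
  rw [e, hm2 ν]
  exact_mod_cast hm0

theorem core_le_ker (N : Subgroup G) [hN : N.Normal] (P : Sylow p G)
    (hfpf : N ⊓ Subgroup.centralizer ((P : Subgroup G) : Set G) = ⊥) (χ : IrrCharacter G)
    (hdeg : ¬ p ∣ charDegree (χ : G → ℂ)) (g : G)
    (hg : g ∈ (N ⊔ ⁅(P : Subgroup G), (P : Subgroup G)⁆).normalCore) :
    (χ : G → ℂ) g = (χ : G → ℂ) 1 := by
  classical
  haveI : Fintype (P : Subgroup G) := Fintype.ofFinite _
  obtain ⟨l, hl⟩ := exists_linear_constituent P χ hdeg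
  refine le_ker_of_shift χ.2 (P : Subgroup G) (fun y => conj ((l y : ℂˣ) : ℂ)) ?_ _ ?_ g hg
  · intro h0
    apply hl
    rw [classInner]
    have : ∑ y : (P : Subgroup G), (χ : G → ℂ) y * conj ((l y : ℂˣ) : ℂ) =
        ∑ y : (P : Subgroup G), conj ((l y : ℂˣ) : ℂ) * (χ : G → ℂ) y :=
      Finset.sum_congr rfl fun y _ => mul_comm _ _
    rw [this, h0, mul_zero]
  · intro x hx
    have hx'' : x ∈ ((N ⊔ ⁅(P : Subgroup G), (P : Subgroup G)⁆ : Subgroup G) : Set G) :=
      Subgroup.normalCore_le _ hx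
    rw [Subgroup.normal_mul] at hx''
    obtain ⟨n, hn, y', hy', rfl⟩ := Set.mem_mul.mp hx''
    have hy2 := hy'
    rw [SetLike.mem_coe, ← Subgroup.map_subtype_commutator] at hy2
    obtain ⟨z, hz, hzy⟩ := Subgroup.mem_map.mp hy2
    have hl1 : l z = 1 := Cfsg.Agent.Lib.Helper10.hom_eq_one_of_mem_commutator l hz
    refine Fintype.sum_equiv (Equiv.mulLeft z) _ _ fun y => ?_
    simp only [Equiv.coe_mulLeft]
    have hzy' : (z : G) = y' := hzy
    rw [map_mul, hl1, one_mul, Subgroup.coe_mul, hzy', mul_assoc,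
      ker_mul (isCharacter_of_irr χ.2) (le_ker_of_fpf N P hfpf χ hdeg ⟨n, hn⟩)]

end Cfsg.Agent.Lib.Helper2.PKer
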