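import Mathlib
import Cfsg.Agent.Lib.Helper2.PKer2
import Cfsg.Agent.Lib.Helper2.Isolated
import Cfsg.Agent.S0081
import Cfsg.Agent.H4.Frattini

/-!
# The intersection of the kernels of the characters of degree prime to `p`: upper bound
-/

set_option autoImplicit false

namespace Cfsg.Agent.Lib.Helper2.PKer

open Cfsg Cfsg.Agent.CharLib Cfsg.Agent.CharLib.H2 Cfsg.Agent.BlockLib
open scoped ComplexConjugate commutatorElement

universe u

variable {G : Type u} [Group G] [Fintype G] {p : ℕ} [Fact p.Prime]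

/-- the intersection of the kernels of the irreducible characters of degree prime to `p` -/
def pKer (p : ℕ) (G : Type u) [Group G] [Fintype G] : Subgroup G where
  carrier := {g | ∀ χ : IrrCharacter G, ¬ p ∣ charDegree (χ : G → ℂ) →
    (χ : G → ℂ) g = (χ : G → ℂ) 1}
  one_mem' := fun χ _ => rfl
  mul_mem' := by
    intro a b ha hb χ hχ
    rw [ker_mul (isCharacter_of_irr χ.2) (ha χ hχ), hb χ hχ]
  inv_mem' := by
    intro a ha χ hχ
    have := ker_mul (isCharacter_of_irr χ.2) (ha χ hχ) a⁻¹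
    rw [mul_inv_cancel] at this
    exact this.symm

theorem pKer_normal : (pKer p G).Normal := ⟨fun n hn g χ hχ => by
  rw [isClassFunction_of_irr χ.2 n g]; exact hn χ hχ⟩

theorem mem_commutator_of_pKer (P : Sylow p G) {y : G} (hyK : y ∈ pKer p G)
    (hyP : y ∈ (P : Subgroup G)) : (⟨y, hyP⟩ : (P : Subgroup G)) ∈ commutator (P : Subgroup G) := by
  by_contra hcon
  obtain ⟨l, hl⟩ := Cfsg.Agent.Lib.Helper10.exists_hom_ne_one_of_notMem_commutator hcon
  exact hl (hom_eq_one_of_pKer (P : Subgroup G) P.not_dvd_index (y := ⟨y, hyP⟩) hyK l)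

theorem pKer_inf_le (P : Sylow p G) :
    pKer p G ⊓ (P : Subgroup G) ≤ (frattini P).map (P : Subgroup G).subtype := by
  intro y hy
  obtain ⟨hyK, hyP⟩ := Subgroup.mem_inf.mp hy
  haveI : Group.IsNilpotent (P : Subgroup G) := P.2.isNilpotent
  exact Subgroup.mem_map.mpr ⟨⟨y, hyP⟩,
    Cfsg.Agent.H4.commutator_le_frattini_of_nilpotent (mem_commutator_of_pKer P hyK hyP), rfl⟩

theorem eq_one_of_mem_centralizer (P : Sylow p G) {c : G} (hcK : c ∈ pKer p G)
    (hcC : c ∈ Subgroup.centralizer ((P : Subgroup G) : Set G)) (hcord : (orderOf c).Coprime p) :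
    c = 1 := by
  let Z := Subgroup.zpowers c
  have hcomm : ∀ (a : (P : Subgroup G)) (z : Z),
      Commute ((P : Subgroup G).subtype a) (Z.subtype z) := by
    intro a z
    obtain ⟨i, hi⟩ := Subgroup.mem_zpowers_iff.mp z.2
    have h1 : Commute (a : G) c := Subgroup.mem_centralizer_iff.mp hcC a a.2
    show Commute (a : G) (z : G)
    rw [← hi]; exact h1.zpow_right i
  let f : ↥(P : Subgroup G) × ↥Z →* G :=
    MonoidHom.noncommCoprod (P : Subgroup G).subtype Z.subtype hcomm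
  let H : Subgroup G := f.range
  have hPH : (P : Subgroup G) ≤ H := fun a ha => ⟨(⟨a, ha⟩, 1), by simp [f]⟩
  have hcH : c ∈ H := ⟨(1, ⟨c, Subgroup.mem_zpowers c⟩), by simp [f]⟩
  have hidx : ¬ p ∣ H.index := fun h => P.not_dvd_index (h.trans (Subgroup.index_dvd_of_le hPH))
  have h1 : (⟨c, hcH⟩ : H) ∈ commutator H := by
    by_contra hcon
    obtain ⟨l, hl⟩ := Cfsg.Agent.Lib.Helper10.exists_hom_ne_one_of_notMem_commutator hcon
    exact hl (hom_eq_one_of_pKer H hidx (y := ⟨c, hcH⟩) hcK l)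
  have h2 : commutator H ≤ (P : Subgroup G).subgroupOf H := by
    rw [commutator_def, Subgroup.commutator_le]
    rintro ⟨_, ⟨x₁, rfl⟩⟩ _ ⟨_, ⟨x₂, rfl⟩⟩ _
    rw [Subgroup.mem_subgroupOf]
    show ⁅f x₁, f x₂⁆ ∈ (P : Subgroup G)
    rw [← map_commutatorElement]
    have e : ⁅x₁, x₂⁆ = (⁅x₁.1, x₂.1⁆, 1) := by
      refine Prod.ext rfl ?_
      show ⁅x₁.2, x₂.2⁆ = 1
      rw [commutatorElement_eq_one_iff_commute]
      obtain ⟨i, hi⟩ := Subgroup.mem_zpowers_iff.mp x₁.2.2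
      obtain ⟨j, hj⟩ := Subgroup.mem_zpowers_iff.mp x₂.2.2
      apply Subtype.ext
      show (x₁.2 : G) * (x₂.2 : G) = (x₂.2 : G) * (x₁.2 : G)
      rw [← hi, ← hj]
      exact ((Commute.refl c).zpow_zpow i j)
    rw [e]
    have e2 : f (⁅x₁.1, x₂.1⁆, 1) = ((⁅x₁.1, x₂.1⁆ : ↥(P : Subgroup G)) : G) := by
      show ((⁅x₁.1, x₂.1⁆ : ↥(P : Subgroup G)) : G) * ((1 : ↥Z) : G) = _
      rw [Subgroup.coe_one, mul_one]
    rw [e2]
    exact (⁅x₁.1, x₂.1⁆ : ↥(P : Subgroup G)).2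
  have h3 : c ∈ (P : Subgroup G) := h2 h1
  obtain ⟨j, hj⟩ := P.2 ⟨c, h3⟩
  have h4 : c ^ (p ^ j) = 1 := congrArg Subtype.val hj
  have h5 : orderOf c ∣ 1 := by
    have hc : (orderOf c).Coprime (p ^ j) := Nat.Coprime.pow_right _ hcord
    rw [← hc.gcd_eq_one]; exact Nat.dvd_gcd dvd_rfl (orderOf_dvd_of_pow_eq_one h4)
  exact orderOf_eq_one_iff.mp (Nat.dvd_one.mp h5)

theorem pKer_le (P : Sylow p G) (N : Subgroup G) [N.Normal]
    (hmax : ∀ L : Subgroup G, L.Normal →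
      L ⊓ Subgroup.centralizer ((P : Subgroup G) : Set G) = ⊥ → L ≤ N) :
    pKer p G ≤ N ⊔ ⁅(P : Subgroup G), (P : Subgroup G)⁆ := by
  classical
  have hp : p.Prime := Fact.out
  set K := pKer p G with hK
  haveI hKn : K.Normal := pKer_normal
  obtain ⟨PK, U₀, hU₀n, hcompl⟩ := Cfsg.Agent.S0081.result P K (pKer_inf_le P)
  haveI := hU₀n
  have hU₀idx : U₀.index = Nat.card PK := hcompl.symm.index_eq_card
  obtain ⟨k, hk⟩ := IsPGroup.iff_card.mp PK.2
  have hU₀cop : (Nat.card U₀).Coprime p := by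
    have h1 := PK.not_dvd_index
    have h2 : (PK : Subgroup K).index = Nat.card U₀ := hcompl.index_eq_card
    rw [h2] at h1
    exact ((Nat.Prime.coprime_iff_not_dvd hp).mpr h1).symm
  set U : Subgroup G := U₀.map K.subtype with hU
  have hmemU : ∀ x : K, (orderOf x).Coprime p → x ∈ U₀ := by
    intro x hx
    rw [← QuotientGroup.eq_one_iff]
    have h3 : ((x : K ⧸ U₀)) ^ (p ^ k) = 1 := by
      rw [← hk, ← hU₀idx, Subgroup.index_eq_card]; exact pow_card_eq_one'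
    have h4 : ((x : K ⧸ U₀)) ^ orderOf x = 1 := by
      rw [← QuotientGroup.mk_pow, pow_orderOf_eq_one]; rfl
    have h5 : orderOf (x : K ⧸ U₀) ∣ 1 := by
      have hc : (orderOf x).Coprime (p ^ k) := Nat.Coprime.pow_right _ hx
      rw [← hc.gcd_eq_one]
      exact Nat.dvd_gcd (orderOf_dvd_of_pow_eq_one h4) (orderOf_dvd_of_pow_eq_one h3)
    exact orderOf_eq_one_iff.mp (Nat.dvd_one.mp h5)
  have hUord : ∀ u : K, u ∈ U₀ → (orderOf u).Coprime p := fun u hu =>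
    Nat.Coprime.coprime_dvd_left (by
      have := orderOf_dvd_natCard (⟨u, hu⟩ : U₀)
      rwa [← Subgroup.orderOf_coe] at this) hU₀cop
  have hUn : U.Normal := by
    refine ⟨fun u hu g => ?_⟩
    obtain ⟨u₀, hu₀, rfl⟩ := Subgroup.mem_map.mp hu
    have hmem : g * (u₀ : G) * g⁻¹ ∈ K := hKn.conj_mem _ u₀.2 g
    refine Subgroup.mem_map.mpr ⟨⟨_, hmem⟩, hmemU _ ?_, rfl⟩
    have e1 : orderOf (⟨g * (u₀ : G) * g⁻¹, hmem⟩ : K) = orderOf (u₀ : K) := by
      rw [← Subgroup.orderOf_coe, ← Subgroup.orderOf_coe]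
      exact orderOf_injective (MulAut.conj g).toMonoidHom (MulAut.conj g).injective (u₀ : G)
    rw [e1]; exact hUord u₀ hu₀
  have hUfpf : U ⊓ Subgroup.centralizer ((P : Subgroup G) : Set G) = ⊥ := by
    rw [eq_bot_iff]
    intro c hc
    obtain ⟨hcU, hcC⟩ := Subgroup.mem_inf.mp hc
    obtain ⟨u₀, hu₀, rfl⟩ := Subgroup.mem_map.mp hcU
    rw [Subgroup.mem_bot]
    refine eq_one_of_mem_centralizer P u₀.2 hcC ?_
    have := hUord u₀ hu₀
    rwa [← Subgroup.orderOf_coe] at this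
  have hUN : U ≤ N := hmax U hUn hUfpf
  obtain ⟨Q, hQ⟩ := (PK.2.map K.subtype).exists_le_sylow
  obtain ⟨g, rfl⟩ := MulAction.exists_smul_eq G P Q
  intro x hx
  have hx' : g * x * g⁻¹ ∈ K := hKn.conj_mem x hx g
  obtain ⟨⟨u, s⟩, hus⟩ := hcompl.2 ⟨g * x * g⁻¹, hx'⟩
  have hus' : ((u : K) : G) * ((s : K) : G) = g * x * g⁻¹ := congrArg Subtype.val hus
  have e : x = (g⁻¹ * ((u : K) : G) * g) * (g⁻¹ * ((s : K) : G) * g) := by
    have : x = g⁻¹ * (g * x * g⁻¹) * g := by group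
    rw [this, ← hus']; group
  rw [e]
  refine Subgroup.mul_mem_sup (hUN ?_) ?_
  · have := hUn.conj_mem _ (Subgroup.mem_map.mpr ⟨(u : K), u.2, rfl⟩) g⁻¹
    simpa using this
  · have hsP : g⁻¹ * ((s : K) : G) * g ∈ (P : Subgroup G) :=
      (mem_sylow_smul_iff P g _).mp (hQ (Subgroup.mem_map.mpr ⟨(s : K), s.2, rfl⟩))
    have hsK : g⁻¹ * ((s : K) : G) * g ∈ K := by
      have := hKn.conj_mem _ (s : K).2 g⁻¹
      simpa using this
    have h1 := mem_commutator_of_pKer P hsK hsP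
    rw [← Subgroup.map_subtype_commutator]
    exact Subgroup.mem_map.mpr ⟨_, h1, rfl⟩

end Cfsg.Agent.Lib.Helper2.PKer
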