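import Mathlib
import Cfsg.Agent.CharLib.L.GaloisChar

/-!
# `p`-rational characters: power maps versus cyclotomic fields
-/

set_option autoImplicit false

namespace Cfsg.Agent.Lib.Helper2.PRat

open Cfsg Cfsg.Agent.CharLib Cfsg.Agent.CharLib.L Module

theorem pow_mod_of_pow_eq_one {α : ℂ} {q : ℕ} (h : α ^ q = 1) (x : ℕ) : α ^ (x % q) = α ^ x := by
  conv_rhs => rw [← Nat.div_add_mod x q, pow_add, pow_mul, h, one_pow, one_mul]

theorem pow_eq_of_modEq {α : ℂ} {q : ℕ} (h : α ^ q = 1) {x y : ℕ} (hxy : x ≡ y [MOD q]) :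
    α ^ x = α ^ y := by
  rw [← pow_mod_of_pow_eq_one h x, ← pow_mod_of_pow_eq_one h y, hxy]

/-- Ramanujan sums are rational -/
theorem exists_rat_sum_units (q : ℕ) [NeZero q] {α : ℂ} (hα : α ^ q = 1) :
    ∃ r : ℚ, ∑ u : (ZMod q)ˣ, α ^ ((u : ZMod q).val) = (r : ℂ) := by
  have hq : 0 < q := Nat.pos_of_ne_zero (NeZero.ne q)
  let a : QBar := ⟨α, mem_QBar_of_pow_eq_one hq hα⟩
  have ha : a ^ q = 1 := Subtype.ext (by simpa [a] using hα)
  let y : QBar := ∑ u : (ZMod q)ˣ, a ^ ((u : ZMod q).val)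
  have hy : (y : ℂ) = ∑ u : (ZMod q)ˣ, α ^ ((u : ZMod q).val) := by
    simp [y, a]
  rw [← hy]
  apply exists_rat_of_fixed
  intro φ
  obtain ⟨m, hm, hφ⟩ := exists_pow_of_algHom q hq φ
  rw [hy]
  simp only [y, map_sum, map_pow, hφ a ha]
  let mu : (ZMod q)ˣ := ZMod.unitOfCoprime m hm
  refine Fintype.sum_equiv (Equiv.mulLeft mu) _ _ fun u => ?_
  show (α ^ m) ^ ((u : ZMod q).val) = α ^ (((mu * u : (ZMod q)ˣ) : ZMod q).val)
  rw [← pow_mul]
  apply pow_eq_of_modEq hα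
  have h1 : ((mu * u : (ZMod q)ˣ) : ZMod q) = ((m * (u : ZMod q).val : ℕ) : ZMod q) := by
    rw [Units.val_mul, ZMod.coe_unitOfCoprime]
    push_cast
    rw [ZMod.natCast_zmod_val]
  rw [h1, ZMod.val_natCast]
  exact (Nat.mod_modEq _ _).symm

theorem character_pow_eq_sum {G : Type*} [Group G] [Finite G] {V : Type*} [AddCommGroup V]
    [Module ℂ V] [FiniteDimensional ℂ V] (ρ : Representation ℂ G V) (g : G) :
    ∃ μ : Fin (finrank ℂ V) → ℂ, (∀ i, μ i ^ orderOf g = 1) ∧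
      ∀ m : ℕ, ρ.character (g ^ m) = ∑ i, μ i ^ m := by
  obtain ⟨b, μ, hμ, hb, -⟩ := character_eq_sum_eigen ρ g
  exact ⟨μ, hμ, fun m => trace_eq_sum_of_eigenbasis (ρ (g ^ m)) b (fun i => μ i ^ m)
    (fun i => rep_pow_eigen ρ g b μ hb m i)⟩

/-- a character fixed by the power maps `k ≡ 1` modulo the `p'`-part of the group order has its
values in the corresponding cyclotomic field -/
theorem mem_adjoin_of_pow_fixed {G : Type*} [Group G] [Finite G] (p : ℕ) [Fact p.Prime]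
    {χ : G → ℂ} (hχ : IsCharacter G χ)
    (h : ∀ k : ℕ, k.Coprime (Nat.card G) →
      k ≡ 1 [MOD Nat.card G / p ^ (Nat.card G).factorization p] → ∀ g, χ (g ^ k) = χ g) (g : G) :
    χ g ∈ IntermediateField.adjoin ℚ ({Complex.exp (2 * Real.pi * Complex.I /
      ((Nat.card G / p ^ (Nat.card G).factorization p : ℕ) : ℂ))} : Set ℂ) := by
  classical
  have hp : p.Prime := Fact.out
  obtain ⟨d, ρ, rfl⟩ := hχ
  set n := Nat.card G with hn
  set q := p ^ n.factorization p with hq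
  set n' := n / q with hn'
  have hn0 : n ≠ 0 := Nat.card_pos.ne'
  have hqn : q * n' = n := Nat.ordProj_mul_ordCompl_eq_self n p
  have hq0 : q ≠ 0 := pow_ne_zero _ hp.ne_zero
  haveI : NeZero q := ⟨hq0⟩
  have hn'0 : n' ≠ 0 := (Nat.ordCompl_pos p hn0).ne'
  haveI : NeZero n' := ⟨hn'0⟩
  have hcop : q.Coprime n' := Nat.Coprime.pow_left _ (Nat.coprime_ordCompl hp hn0)
  obtain ⟨A, hA1, hA2⟩ := Nat.chineseRemainder hcop 1 0
  obtain ⟨B, hB1, hB2⟩ := Nat.chineseRemainder hcop 0 1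
  set F := IntermediateField.adjoin ℚ ({Complex.exp (2 * Real.pi * Complex.I / (n' : ℂ))} : Set ℂ)
    with hF
  have hprim : IsPrimitiveRoot (Complex.exp (2 * Real.pi * Complex.I / (n' : ℂ))) n' :=
    Complex.isPrimitiveRoot_exp n' hn'0
  have hζF : Complex.exp (2 * Real.pi * Complex.I / (n' : ℂ)) ∈ F :=
    IntermediateField.subset_adjoin ℚ _ (Set.mem_singleton _)
  obtain ⟨μ, hμ, hpow⟩ := character_pow_eq_sum ρ g
  have hμn : ∀ i, μ i ^ n = 1 := by
    intro i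
    obtain ⟨c, hc⟩ := orderOf_dvd_natCard g
    rw [hn, hc, pow_mul, hμ i, one_pow]
  let K : (ZMod q)ˣ → ℕ := fun u => (u : ZMod q).val * A + B
  have hK1 : ∀ u, K u ≡ (u : ZMod q).val [MOD q] := by
    intro u
    have h1 := (Nat.ModEq.mul_left (u : ZMod q).val hA1).add hB1
    simpa [K] using h1
  have hK2 : ∀ u, K u ≡ 1 [MOD n'] := by
    intro u
    have h1 := (Nat.ModEq.mul_left (u : ZMod q).val hA2).add hB2
    simpa [K] using h1
  have hKc : ∀ u, (K u).Coprime n := by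
    intro u
    rw [← hqn]
    apply Nat.Coprime.mul_right
    · have h1 : Nat.gcd (K u) q = Nat.gcd (u : ZMod q).val q := (hK1 u).gcd_eq
      rw [Nat.Coprime, h1]
      exact ZMod.val_coe_unit_coprime u
    · have h1 : Nat.gcd (K u) n' = Nat.gcd 1 n' := (hK2 u).gcd_eq
      rw [Nat.Coprime, h1, Nat.gcd_one_left]
  have hsum : (Fintype.card (ZMod q)ˣ : ℂ) * ρ.character g =
      ∑ i, μ i ^ B * ∑ u : (ZMod q)ˣ, (μ i ^ A) ^ ((u : ZMod q).val) := by
    have h1 : ∀ u : (ZMod q)ˣ, ρ.character g = ∑ i, μ i ^ B * (μ i ^ A) ^ ((u : ZMod q).val) := by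
      intro u
      rw [← h (K u) (hKc u) (hK2 u) g, hpow]
      refine Finset.sum_congr rfl fun i _ => ?_
      rw [← pow_mul, ← pow_add]
      congr 1
      simp only [K]; ring
    calc (Fintype.card (ZMod q)ˣ : ℂ) * ρ.character g = ∑ _u : (ZMod q)ˣ, ρ.character g := by
          rw [Finset.sum_const, Finset.card_univ, nsmul_eq_mul]
      _ = ∑ u : (ZMod q)ˣ, ∑ i, μ i ^ B * (μ i ^ A) ^ ((u : ZMod q).val) :=
          Finset.sum_congr rfl fun u _ => h1 u
      _ = _ := by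
          rw [Finset.sum_comm]
          exact Finset.sum_congr rfl fun i _ => (Finset.mul_sum _ _ _).symm
  have hmem : ∑ i, μ i ^ B * ∑ u : (ZMod q)ˣ, (μ i ^ A) ^ ((u : ZMod q).val) ∈ F := by
    apply sum_mem
    intro i _
    apply mul_mem
    · have h1 : (μ i ^ B) ^ n' = 1 := by
        rw [← pow_mul]
        obtain ⟨c, hc⟩ := (Nat.modEq_zero_iff_dvd.mp hB1)
        rw [hc, mul_assoc, mul_comm c n', ← mul_assoc, hqn, pow_mul, hμn i, one_pow]
      obtain ⟨j, -, hj⟩ := hprim.eq_pow_of_pow_eq_one h1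
      rw [← hj]
      exact pow_mem hζF j
    · have h1 : (μ i ^ A) ^ q = 1 := by
        rw [← pow_mul]
        obtain ⟨c, hc⟩ := (Nat.modEq_zero_iff_dvd.mp hA2)
        rw [hc, mul_comm n' c, mul_assoc, mul_comm n' q, hqn, mul_comm, pow_mul, hμn i, one_pow]
      obtain ⟨r, hr⟩ := exists_rat_sum_units q h1
      rw [hr]
      exact SubfieldClass.ratCast_mem F r
  have hcard : (Fintype.card (ZMod q)ˣ : ℂ) ≠ 0 := by
    exact_mod_cast Fintype.card_ne_zero
  have hfin : ρ.character g = (Fintype.card (ZMod q)ˣ : ℂ)⁻¹ *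
      ∑ i, μ i ^ B * ∑ u : (ZMod q)ˣ, (μ i ^ A) ^ ((u : ZMod q).val) := by
    rw [← hsum, inv_mul_cancel_left₀ hcard]
  rw [hfin]
  exact mul_mem (inv_mem (natCast_mem F _)) hmem

end Cfsg.Agent.Lib.Helper2.PRat
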