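import Mathlib
import Cfsg.Agent.Lib.Helper2.PRat

/-!
# `p`-rational characters: from cyclotomic fields to power maps
-/

set_option autoImplicit false

namespace Cfsg.Agent.Lib.Helper2.PRat

open Cfsg Cfsg.Agent.CharLib Cfsg.Agent.CharLib.L Module

theorem fixed_of_mem_adjoin (φ : QBar →ₐ[ℚ] ℂ) {ζ : ℂ} (hζ : ∃ hz : ζ ∈ QBar, φ ⟨ζ, hz⟩ = ζ)
    {z : ℂ} (h : z ∈ IntermediateField.adjoin ℚ ({ζ} : Set ℂ)) :
    ∃ hz : z ∈ QBar, φ ⟨z, hz⟩ = z := by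
  induction h using IntermediateField.adjoin_induction with
  | mem x hx =>
    rw [Set.mem_singleton_iff] at hx
    subst hx
    exact hζ
  | algebraMap x =>
    refine ⟨QBar.algebraMap_mem x, ?_⟩
    exact φ.commutes x
  | add x y _ _ hx hy =>
    obtain ⟨hx1, hx2⟩ := hx
    obtain ⟨hy1, hy2⟩ := hy
    refine ⟨add_mem hx1 hy1, ?_⟩
    have : (⟨x + y, add_mem hx1 hy1⟩ : QBar) = ⟨x, hx1⟩ + ⟨y, hy1⟩ := rfl
    rw [this, map_add, hx2, hy2]
  | inv x _ hx =>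
    obtain ⟨hx1, hx2⟩ := hx
    refine ⟨inv_mem hx1, ?_⟩
    have : (⟨x⁻¹, inv_mem hx1⟩ : QBar) = (⟨x, hx1⟩ : QBar)⁻¹ := rfl
    rw [this, map_inv₀, hx2]
  | mul x y _ _ hx hy =>
    obtain ⟨hx1, hx2⟩ := hx
    obtain ⟨hy1, hy2⟩ := hy
    refine ⟨mul_mem hx1 hy1, ?_⟩
    have : (⟨x * y, mul_mem hx1 hy1⟩ : QBar) = ⟨x, hx1⟩ * ⟨y, hy1⟩ := rfl
    rw [this, map_mul, hx2, hy2]

theorem pow_fixed_of_mem_adjoin {N : Type*} [Group N] [Finite N] (p : ℕ) [Fact p.Prime]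
    {θ : N → ℂ} (hθ : IsCharacter N θ) (m : ℕ) (hm : ¬ p ∣ m)
    (hrat : ∀ x, θ x ∈ IntermediateField.adjoin ℚ
      ({Complex.exp (2 * Real.pi * Complex.I / m)} : Set ℂ))
    (k : ℕ) (hk : k.Coprime (Nat.card N))
    (hk1 : k ≡ 1 [MOD Nat.card N / p ^ (Nat.card N).factorization p]) (x : N) :
    θ (x ^ k) = θ x := by
  classical
  have hp : p.Prime := Fact.out
  obtain ⟨d, ρ, rfl⟩ := hθ
  set n := Nat.card N with hn
  have hn0 : n ≠ 0 := Nat.card_pos.ne'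
  have hm0 : m ≠ 0 := fun h => hm (h ▸ dvd_zero p)
  have hqn : p ^ n.factorization p * (n / p ^ n.factorization p) = n :=
    Nat.ordProj_mul_ordCompl_eq_self n p
  have hg : Nat.gcd n m ∣ n / p ^ n.factorization p := by
    have h1 : Nat.gcd n m ∣ p ^ n.factorization p * (n / p ^ n.factorization p) := by
      rw [hqn]; exact Nat.gcd_dvd_left n m
    refine Nat.Coprime.dvd_of_dvd_mul_left ?_ h1
    apply Nat.Coprime.pow_right
    apply Nat.Coprime.coprime_dvd_left (Nat.gcd_dvd_right n m)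
    exact ((Nat.Prime.coprime_iff_not_dvd hp).mpr hm).symm
  obtain ⟨k', hk'1, hk'2⟩ := Nat.chineseRemainder' (hk1.of_dvd hg)
  have hL0 : 0 < n * m := Nat.mul_pos (Nat.pos_of_ne_zero hn0) (Nat.pos_of_ne_zero hm0)
  have hcop : k'.Coprime (n * m) := by
    apply Nat.Coprime.mul_right
    · have h1 : Nat.gcd k' n = Nat.gcd k n := hk'1.gcd_eq
      rw [Nat.Coprime, h1]; exact hk
    · have h1 : Nat.gcd k' m = Nat.gcd 1 m := hk'2.gcd_eq
      rw [Nat.Coprime, h1, Nat.gcd_one_left]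
  obtain ⟨φ, hφ⟩ := exists_algHom_of_coprime (n * m) hL0 k' hcop
  have hprim := Complex.isPrimitiveRoot_exp m hm0
  set ζ := Complex.exp (2 * Real.pi * Complex.I / m) with hζ
  have hζm : ζ ^ m = 1 := hprim.pow_eq_one
  have hζQ : ζ ∈ QBar := mem_QBar_of_pow_eq_one (Nat.pos_of_ne_zero hm0) hζm
  have hfix : φ ⟨ζ, hζQ⟩ = ζ := by
    rw [hφ ⟨ζ, hζQ⟩ (Subtype.ext (by
      show ζ ^ (n * m) = 1
      rw [mul_comm, pow_mul, hζm, one_pow]))]
    show ζ ^ k' = ζ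
    have := pow_eq_of_modEq hζm hk'2
    rwa [pow_one] at this
  obtain ⟨hz, hz2⟩ := fixed_of_mem_adjoin φ ⟨hζQ, hfix⟩ (hrat x)
  have h1 := algHom_character ρ x (n * m) hL0 (by rw [pow_mul, hn, pow_card_eq_one', one_pow])
    φ k' hφ ⟨ρ.character x, hz⟩ rfl
  have h2 : x ^ k' = x ^ k := pow_eq_pow_iff_modEq.mpr (hk'1.of_dvd (orderOf_dvd_natCard x))
  rw [← h2, ← h1, hz2]

end Cfsg.Agent.Lib.Helper2.PRat
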