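import Mathlib
import Cfsg.Agent.Lib.Helper2.GrCent6
import Cfsg.Agent.Lib.Helper2.PRat2
import Cfsg.Agent.Lib.Helper2.PRat
import Cfsg.Agent.Lib.Helper2.GlauCyc
import Cfsg.Agent.Lib.Helper24.ExtTwist
import Cfsg.Agent.S0863

/-!
# Stability properties of the augmentation condition
-/

set_option autoImplicit false

namespace Cfsg.Agent.Lib.Helper2.GrCent

open Cfsg Cfsg.Agent.CharLib Cfsg.Agent.BlockLib Module
open scoped ComplexConjugate

universe u

variable {G : Type u} [Group G] [Fintype G] {M : Ideal AlgInt} {p : ℕ} [Fact p.Prime]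

theorem Aug.comp_equiv {N : Subgroup G} {χ : G → ℂ} (hA : Aug M N χ) (α : G ≃* G)
    (hα : ∀ n ∈ N, α.symm n ∈ N) : Aug M N (fun x => χ (α x)) := by
  intro f hf hfi
  have h1 := hA (fun y => f (α.symm y)) (fun n hn x => by
      show f (α.symm (n * x * n⁻¹)) = f (α.symm x)
      rw [map_mul, map_mul, map_inv]; exact hf _ (hα n hn) _) (fun x => hfi _)
  have e1 : omega (fun x => χ (α x)) f = omega χ (fun y => f (α.symm y)) := by
    unfold omega
    beta_reduce
    rw [map_one]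
    congr 1
    exact Fintype.sum_equiv α.toEquiv _ _ (fun x => by simp)
  have e2 : aug f = aug (fun y => f (α.symm y)) := by
    unfold aug
    exact Fintype.sum_equiv α.toEquiv _ _ (fun x => by simp)
  rw [e1, e2]; exact h1

theorem Aug.ring (hne : M ≠ ⊤) [M.IsPrime] {N : Subgroup G} {χ : G → ℂ} (hA : Aug M N χ) {f : G → ℂ}
    (hf : NInv N f) (hfi : IntVal f) : MemLocalRing M (omega χ f) := by
  obtain ⟨k, hk⟩ := aug_intVal hfi
  have h1 := memLocalRing_add (memLocalRing_of_memLocalIdeal (hA f hf hfi))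
    (memLocalRing_intCast hne k)
  rwa [← hk, sub_add_cancel] at h1

theorem Aug.twist (hM : IsPModular p M) {N : Subgroup G} [N.Normal] {χ : G → ℂ}
    (hA : Aug M N χ) (ν : G →* ℂˣ) (hν : ∀ n ∈ N, ν n = 1) (a : ℕ)
    (hνp : ∀ g, ((ν g : ℂˣ) : ℂ) ^ (p ^ a) = 1) : Aug M N (fun x => ((ν x : ℂˣ) : ℂ) * χ x) := by
  haveI := isPrime_of_isPModular hM
  have hne := ne_top_of_isPModular hM
  apply aug_of_good
  intro g f hf
  rw [omega_twist ν hν hf]
  have h1 := hA f hf.inv hf.int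
  have h2 := memLocalIdeal_sub_one_of_pow_eq_one hM (hνp g)
  have h3 := hA.ring hne hf.inv hf.int
  have h4 := memLocalIdeal_add (memLocalIdeal_mul_right h2 h3) h1
  have e : (((ν g : ℂˣ) : ℂ) - 1) * omega χ f + (omega χ f - aug f) =
      ((ν g : ℂˣ) : ℂ) * omega χ f - aug f := by ring
  rwa [e] at h4

theorem memLocalIdeal_pow_sub (hM : IsPModular p M) {μ : ℂ} {n k : ℕ} (hn : 0 < n) (hμ : μ ^ n = 1)
    (hk : k ≡ 1 [MOD n / p ^ n.factorization p]) : MemLocalIdeal M (μ ^ k - μ) := by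
  haveI := isPrime_of_isPModular hM
  have hne := ne_top_of_isPModular hM
  have hμ0 : μ ≠ 0 := by
    rintro rfl
    rw [zero_pow hn.ne'] at hμ
    exact zero_ne_one hμ
  have h1 : k * p ^ n.factorization p ≡ 1 * p ^ n.factorization p [MOD n] := by
    have := Nat.ModEq.mul_right' (p ^ n.factorization p) hk
    rwa [Nat.div_mul_cancel (Nat.ordProj_dvd n p)] at this
  have h2 : (μ ^ k * μ⁻¹) ^ (p ^ n.factorization p) = 1 := by
    rw [mul_pow, ← pow_mul, PRat.pow_eq_of_modEq hμ h1, one_mul, inv_pow,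
      mul_inv_cancel₀ (pow_ne_zero _ hμ0)]
  have h3 := memLocalIdeal_sub_one_of_pow_eq_one hM h2
  have h4 := memLocalIdeal_mul_left
    (memLocalRing_of_isIntegral hne (isIntegral_of_pow_eq_one hn hμ)) h3
  have e : μ * (μ ^ k * μ⁻¹ - 1) = μ ^ k - μ := by field_simp
  rwa [e] at h4

theorem Aug.pow (hM : IsPModular p M) {N : Subgroup G} {χ : G → ℂ} (hχ : IsCharacter G χ) {d : ℕ}
    (hd : χ 1 = d) (hpd : ¬ p ∣ d) (hA : Aug M N χ) (k : ℕ)
    (hk : k ≡ 1 [MOD Nat.card G / p ^ (Nat.card G).factorization p]) :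
    Aug M N (fun x => χ (x ^ k)) := by
  haveI := isPrime_of_isPModular hM
  have hne := ne_top_of_isPModular hM
  intro f hf hfi
  have key : MemLocalIdeal M (omega (fun x => χ (x ^ k)) f - omega χ f) := by
    unfold omega
    beta_reduce
    rw [one_pow, ← sub_div, ← Finset.sum_sub_distrib, hd]
    refine memLocalIdeal_div (memLocalIdeal_sum _ _ fun x _ => ?_) (memLocalRing_natCast hne d)
      (fun h => hpd ((memLocalIdeal_natCast_iff hM d).mp h))
    rw [← mul_sub]
    obtain ⟨c, hc⟩ := hfi x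
    rw [hc]
    refine memLocalIdeal_mul_left (memLocalRing_intCast hne c) ?_
    obtain ⟨n, ρ, rfl⟩ := hχ
    obtain ⟨μ, hμ, hs⟩ := PRat.character_pow_eq_sum ρ x
    have h1 := hs 1
    rw [pow_one] at h1
    rw [hs k, h1, ← Finset.sum_sub_distrib]
    refine memLocalIdeal_sum _ _ fun i _ => ?_
    rw [pow_one]
    refine memLocalIdeal_pow_sub hM Nat.card_pos ?_ hk
    obtain ⟨c', hc'⟩ := orderOf_dvd_natCard x
    rw [hc', pow_mul, hμ i, one_pow]
  have h2 := memLocalIdeal_add key (hA f hf hfi)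
  rwa [sub_add_sub_cancel] at h2

theorem exists_mul_add_one {c q : ℕ} (hq : 0 < q) (h : c.Coprime q) : ∃ s : ℕ, q ∣ c * s + 1 := by
  haveI : NeZero q := ⟨hq.ne'⟩
  let u := ZMod.unitOfCoprime c h
  refine ⟨(-(↑(u⁻¹) : ZMod q)).val, ?_⟩
  rw [← ZMod.natCast_eq_zero_iff]
  push_cast
  rw [ZMod.natCast_zmod_val]
  have h1 : (c : ZMod q) * ((u⁻¹ : (ZMod q)ˣ) : ZMod q) = 1 := by
    have := u.mul_inv
    rwa [ZMod.coe_unitOfCoprime] at this
  linear_combination -h1

end Cfsg.Agent.Lib.Helper2.GrCent
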