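import Mathlib
import Cfsg.Agent.Lib.Helper2.PRat3

/-!
# The canonical extension: augmentation condition and determinantal order prime to `p`
-/

set_option autoImplicit false

namespace Cfsg.Agent.Lib.Helper2.GrCent

open Cfsg Cfsg.Agent.CharLib Cfsg.Agent.BlockLib Module
open scoped ComplexConjugate

universe u

variable {G : Type u} [Group G] [Fintype G] {M : Ideal AlgInt} {p : ℕ} [Fact p.Prime]
variable {N : Subgroup G} [hN : N.Normal] {ψ : G → ℂ}

theorem detChar_pow_detOrder (χ : G → ℂ) (g : G) : detChar χ g ^ detOrder χ = 1 := by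
  have := congrFun (pow_orderOf_eq_one (detChar χ)) g
  rwa [Pi.pow_apply] at this

theorem detOrder_dvd_of_pow {χ : G → ℂ} {m : ℕ} (h : ∀ g, detChar χ g ^ m = 1) :
    detOrder χ ∣ m := by
  apply orderOf_dvd_of_pow_eq_one
  funext g
  rw [Pi.pow_apply, h g]
  rfl

theorem Setup.exists_canon (S : Setup p M N ψ) {d : ℕ} (hd : ψ 1 = d) (hpd : ¬ p ∣ d)
    (hdet : ¬ p ∣ detOrder (fun n : N => ψ n)) :
    ∃ η : G → ℂ, IsIrrCharacter G η ∧ (∀ n : N, η n = ψ n) ∧ Aug M N η ∧ ¬ p ∣ detOrder η := by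
  have hp : p.Prime := Fact.out
  obtain ⟨l, hl1, -, hA⟩ := S.exists_aug
  set η₁ : G → ℂ := fun g => ((l g : ℂˣ) : ℂ) * ψ g with hη₁
  have hirr₁ : IsIrrCharacter G η₁ := Cfsg.Agent.H25.isIrrCharacter_hom_mul l S.hψ
  have hch₁ := isCharacter_of_irr hirr₁
  have hd₁ : η₁ 1 = d := by rw [hη₁]; beta_reduce; rw [map_one, Units.val_one, one_mul, hd]
  obtain ⟨D, hD⟩ := Cfsg.Agent.H6.exists_detHom hch₁
  set o := detOrder η₁ with ho
  have ho0 : o ≠ 0 := by
    intro h0
    have := detOrder_dvd_card hch₁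
    rw [← ho, h0, zero_dvd_iff] at this
    exact Nat.card_pos.ne' this
  have hDo : ∀ g, ((D g : ℂˣ) : ℂ) ^ o = 1 := fun g => by rw [hD]; exact detChar_pow_detOrder η₁ g
  set a := o.factorization p with ha
  set m := o / p ^ a with hm
  have hom : p ^ a * m = o := Nat.ordProj_mul_ordCompl_eq_self o p
  have hpm : ¬ p ∣ m := Nat.not_dvd_ordCompl hp ho0
  have hcop : (m * d).Coprime (p ^ a) := by
    apply Nat.Coprime.pow_right
    exact ((Nat.Prime.coprime_iff_not_dvd hp).mpr
      (fun h => (hp.dvd_mul.mp h).elim hpm hpd)).symm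
  obtain ⟨s, hs⟩ := exists_mul_add_one (pow_pos hp.pos a) hcop
  set ν : G →* ℂˣ := D ^ (m * s) with hν
  have hνv : ∀ g, ((ν g : ℂˣ) : ℂ) = ((D g : ℂˣ) : ℂ) ^ (m * s) := fun g => by
    rw [hν, MonoidHom.pow_apply, Units.val_pow_eq_pow_val]
  have hresfun : (fun n : N => η₁ n) = fun n : N => ψ n := by
    funext n
    rw [hη₁]; beta_reduce
    rw [hl1 n n.2, Units.val_one, one_mul]
  have hνN : ∀ n ∈ N, ν n = 1 := by
    intro n hn
    have h1 : ((D n : ℂˣ) : ℂ) ^ detOrder (fun n : N => ψ n) = 1 := by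
      have h2 := congrFun (Cfsg.Agent.H6.detChar_restrict hch₁ N) ⟨n, hn⟩
      rw [hresfun] at h2
      rw [hD]
      have h3 := @detChar_pow_detOrder N _ (Fintype.ofFinite _) (fun n : N => ψ n) ⟨n, hn⟩
      rw [h2] at h3
      exact h3
    have h4 : orderOf ((D n : ℂˣ) : ℂ) ∣ m := by
      have h5 : orderOf ((D n : ℂˣ) : ℂ) ∣ p ^ a * m := by
        rw [hom]; exact orderOf_dvd_of_pow_eq_one (hDo n)
      refine Nat.Coprime.dvd_of_dvd_mul_left ?_ h5
      apply Nat.Coprime.pow_right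
      exact Nat.Coprime.coprime_dvd_left (orderOf_dvd_of_pow_eq_one h1)
        ((Nat.Prime.coprime_iff_not_dvd hp).mpr hdet).symm
    apply Units.ext
    rw [hνv, Units.val_one, pow_mul, orderOf_dvd_iff_pow_eq_one.mp h4, one_pow]
  have hνp : ∀ g, ((ν g : ℂˣ) : ℂ) ^ (p ^ a) = 1 := by
    intro g
    rw [hνv, ← pow_mul]
    have e : m * s * p ^ a = o * s := by rw [← hom]; ring
    rw [e, pow_mul, hDo, one_pow]
  refine ⟨fun x => ((ν x : ℂˣ) : ℂ) * η₁ x, Cfsg.Agent.H25.isIrrCharacter_hom_mul ν hirr₁, ?_,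
    hA.twist S.hM ν hνN a hνp, ?_⟩
  · intro n
    beta_reduce
    rw [hνN n n.2, Units.val_one, one_mul]
    exact congrFun hresfun n
  · intro hdvd
    apply hpm
    refine hdvd.trans (detOrder_dvd_of_pow fun g => ?_)
    rw [Cfsg.Agent.H6.detChar_twist ν hch₁ hd₁]
    beta_reduce
    rw [← hD, hνv, ← pow_mul, ← pow_succ, ← pow_mul]
    obtain ⟨c, hc⟩ := hs
    have e : (m * s * d + 1) * m = o * c := by
      have : m * s * d + 1 = p ^ a * c := by rw [← hc]; ring
      rw [this, ← hom]; ring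
    rw [e, pow_mul, hDo, one_pow]

theorem Setup.canon_unique (S : Setup p M N ψ) {d : ℕ} (hd : ψ 1 = d) (hpd : ¬ p ∣ d)
    {η η' : G → ℂ} (hη : IsIrrCharacter G η) (hr : ∀ n : N, η n = ψ n) (hA : Aug M N η)
    (hdet : ¬ p ∣ detOrder η) (hη' : IsIrrCharacter G η') (hr' : ∀ n : N, η' n = ψ n)
    (hA' : Aug M N η') (hdet' : ¬ p ∣ detOrder η') : η' = η := by
  have hp : p.Prime := Fact.out
  haveI := isPrime_of_isPModular S.hM
  have hne := ne_top_of_isPModular S.hM
  have hresη : IsIrrCharacter N (fun n : N => η n) := by rw [funext hr]; exact S.hres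
  obtain ⟨μ, hμ⟩ := Cfsg.Agent.Lib.Helper24.exists_hom_of_extensions N hη hη' hresη
    (fun n => (hr' n).trans (hr n).symm)
  set lam : G →* ℂˣ := μ.comp (QuotientGroup.mk' N) with hlam
  have hlamv : ∀ g, η' g = ((lam g : ℂˣ) : ℂ) * η g := hμ
  have hlamN : ∀ n ∈ N, lam n = 1 := by
    intro n hn
    rw [hlam, MonoidHom.comp_apply, QuotientGroup.mk'_apply, (QuotientGroup.eq_one_iff n).mpr hn,
      map_one]
  have hfun : η' = fun g => ((lam g : ℂˣ) : ℂ) * η g := funext hlamv
  obtain ⟨s, hs, htest⟩ := S.test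
  set n := Nat.card G with hn
  have hlamn : ∀ g, ((lam g : ℂˣ) : ℂ) ^ n = 1 := by
    intro g
    rw [← Units.val_pow_eq_pow_val, ← map_pow, hn, pow_card_eq_one', map_one, Units.val_one]
  -- congruence
  have hcong : ∀ g, MemLocalIdeal M (((lam g : ℂˣ) : ℂ) - 1) := by
    intro g
    obtain ⟨v, hv, hvs⟩ := htest g
    have h1 := hA' v hv.inv hv.int
    rw [hfun, omega_twist lam hlamN hv] at h1
    have h2 := hA v hv.inv hv.int
    have hint : IsIntegral ℤ ((lam g : ℂˣ) : ℂ) := isIntegral_of_pow_eq_one Nat.card_pos (hlamn g)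
    have h3 := memLocalIdeal_sub h1 (memLocalIdeal_mul_left (memLocalRing_of_isIntegral hne hint) h2)
    have e : ((lam g : ℂˣ) : ℂ) * omega η v - aug v - ((lam g : ℂˣ) : ℂ) * (omega η v - aug v) =
        (((lam g : ℂˣ) : ℂ) - 1) * (s : ℂ) := by rw [hvs]; ring
    rw [e] at h3
    rcases memLocalIdeal_or_of_mul (memLocalRing_sub (memLocalRing_of_isIntegral hne hint)
      (memLocalRing_one hne)) (memLocalRing_natCast hne s) h3 with h | h
    · exact h
    · exact absurd ((memLocalIdeal_natCast_iff S.hM s).mp h) hs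
  have hq : ∀ g, ((lam g : ℂˣ) : ℂ) ^ (p ^ n.factorization p) = 1 := by
    intro g
    set z := ((lam g : ℂˣ) : ℂ) with hz
    have hint : IsIntegral ℤ z := isIntegral_of_pow_eq_one Nat.card_pos (hlamn g)
    have hroot : IsPRoot p (z ^ (p ^ n.factorization p)) := by
      refine ⟨n / p ^ n.factorization p, Nat.not_dvd_ordCompl hp Nat.card_pos.ne', ?_⟩
      rw [← pow_mul, Nat.ordProj_mul_ordCompl_eq_self, hlamn]
    apply pRoot_unique S.hM hroot (IsPRoot.one p)
    rw [← mul_geom_sum]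
    exact memLocalIdeal_mul_right (hcong g) (memLocalRing_sum _ _ fun i _ =>
      memLocalRing_pow (memLocalRing_of_isIntegral hne hint) i)
  have hdη : η 1 = d := by
    have := hr 1
    rw [← hd]; exact this
  rw [hfun]
  funext g
  have hz1 : ((lam g : ℂˣ) : ℂ) = 1 := by
    set z := ((lam g : ℂˣ) : ℂ) with hz
    have h1 := detChar_pow_detOrder η' g
    have h2 := detChar_pow_detOrder η g
    have h3 : detChar η' g = z ^ d * detChar η g := by
      rw [hfun, Cfsg.Agent.H6.detChar_twist lam (isCharacter_of_irr hη) hdη]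
    have h4 : z ^ (d * (detOrder η * detOrder η')) = 1 := by
      have h5 : (z ^ d * detChar η g) ^ (detOrder η * detOrder η') = 1 := by
        rw [← h3, mul_comm, pow_mul, h1, one_pow]
      rw [mul_pow, pow_mul (detChar η g), h2, one_pow, mul_one, ← pow_mul] at h5
      exact h5
    have h6 : orderOf z ∣ 1 := by
      have hc : (p ^ n.factorization p).Coprime (d * (detOrder η * detOrder η')) := by
        apply Nat.Coprime.pow_left
        exact (Nat.Prime.coprime_iff_not_dvd hp).mpr (fun h =>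
          (hp.dvd_mul.mp h).elim hpd (fun h' => (hp.dvd_mul.mp h').elim hdet hdet'))
      rw [← hc.gcd_eq_one]
      exact Nat.dvd_gcd (orderOf_dvd_of_pow_eq_one (hq g)) (orderOf_dvd_of_pow_eq_one h4)
    exact orderOf_eq_one_iff.mp (Nat.dvd_one.mp h6)
  rw [hz1, one_mul]

end Cfsg.Agent.Lib.Helper2.GrCent
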