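import Mathlib
import Cfsg.Agent.Lib.Helper2.RelGlau3
import Cfsg.Agent.Lib.Helper10.InvOver2
import Cfsg.Agent.Lib.Helper23.DefectZero

/-!
# The Glauberman correspondence above a normal Sylow subgroup: global statements
-/

set_option autoImplicit false

namespace Cfsg.Agent.Lib.Helper2

open Cfsg Cfsg.Agent.CharLib Cfsg.Agent.CharLib.H2 Cfsg.Agent.Lib.Helper10 Cfsg.Agent.BlockLib Finset
open scoped ComplexConjugate

universe u

variable {Γ : Type u} [Group Γ]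

namespace RQ

variable {K C Q P : Subgroup Γ} {p : ℕ}

theorem nrmQD (h : RQ K C Q P p) : Nrm Q C := fun c hc => h.hnT c (h.hDT hc)

theorem cop_K [Finite Γ] [Fact p.Prime] (h : RQ K C Q P p) :
    (Q.relIndex K).Coprime (Nat.card P) := by
  obtain ⟨k, hk⟩ := IsPGroup.iff_card.mp h.hP
  rw [hk]
  exact Nat.Coprime.pow_right k
    ((Nat.Prime.coprime_iff_not_dvd (Fact.out : p.Prime)).mpr h.hidx).symm

theorem cop_C [Finite Γ] [Fact p.Prime] (h : RQ K C Q P p) :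
    (Q.relIndex C).Coprime (Nat.card P) := by
  refine h.cop_K.coprime_dvd_left ?_
  rw [← Subgroup.relIndex_mul_relIndex Q C K h.hQD h.hDT]
  exact Dvd.intro _ rfl

/-- an invariant character of `K` lies over an invariant character of `Q` -/
theorem exists_inv_K [Finite Γ] [Fact p.Prime] [Fintype K] [Fintype Q] (h : RQ K C Q P p)
    (χ : IrrCharacter K) (hχ : SInv K P (χ : K → ℂ)) :
    ∃ φ : IrrCharacter Q, classInner (resTo h.hQT (χ : K → ℂ)) (φ : Q → ℂ) ≠ 0 ∧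
      SInv Q P (φ : Q → ℂ) := by
  classical
  cases nonempty_fintype Γ
  haveI hN : (Q.subgroupOf K).Normal := by
    refine ⟨fun n hn' g => ?_⟩
    exact Subgroup.mem_subgroupOf.mpr (h.hnT g g.2 n (Subgroup.mem_subgroupOf.mp hn'))
  haveI := h.hP.isNilpotent
  exact Cfsg.Agent.S4447.result K P Q h.hTP h.hQT h.hnP h.cop_K (Or.inl inferInstance) χ hχ

/-- an invariant character of `C` lies over an invariant character of `Q` -/
theorem exists_inv_C [Finite Γ] [Fact p.Prime] [Fintype C] [Fintype Q] (h : RQ K C Q P p)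
    (ξ : IrrCharacter C) (hξ : SInv C P (ξ : C → ℂ)) :
    ∃ φ : IrrCharacter Q, classInner (resTo h.hQD (ξ : C → ℂ)) (φ : Q → ℂ) ≠ 0 ∧
      SInv Q P (φ : Q → ℂ) := by
  classical
  cases nonempty_fintype Γ
  haveI hN : (Q.subgroupOf C).Normal := by
    refine ⟨fun n hn' g => ?_⟩
    exact Subgroup.mem_subgroupOf.mpr (h.nrmQD g g.2 n (Subgroup.mem_subgroupOf.mp hn'))
  haveI := h.hP.isNilpotent
  exact Cfsg.Agent.S4447.result C P Q h.nrmD h.hQD h.hnP h.cop_C (Or.inl inferInstance) ξ hξ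

/-- two invariant characters of `Q` under the same character of `K` are conjugate under `C` -/
theorem conj_in_C [Finite Γ] [Fact p.Prime] [Fintype K] [Fintype Q] (h : RQ K C Q P p)
    (χ : IrrCharacter K) (φ φ' : IrrCharacter Q) (hφ : SInv Q P (φ : Q → ℂ))
    (hφ' : SInv Q P (φ' : Q → ℂ))
    (h1 : classInner (resTo h.hQT (χ : K → ℂ)) (φ : Q → ℂ) ≠ 0)
    (h2 : classInner (resTo h.hQT (χ : K → ℂ)) (φ' : Q → ℂ) ≠ 0) :
    ∃ y ∈ C, ∀ n n' : Q, (n' : Γ) = y * n * y⁻¹ → (φ' : Q → ℂ) n = (φ : Q → ℂ) n' := by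
  classical
  haveI hN : (Q.subgroupOf K).Normal := by
    refine ⟨fun n hn' g => ?_⟩
    exact Subgroup.mem_subgroupOf.mpr (h.hnT g g.2 n (Subgroup.mem_subgroupOf.mp hn'))
  obtain ⟨t, ht⟩ := sub_clifford_conj Q K h.hQT χ.2 φ.2 φ'.2 h1 h2
  set T := stabIn K Q h.hnT (φ : Q → ℂ) with hTdef
  have hTK : T ≤ K := stabIn_le _ _
  have hQT : Q ≤ T := le_stabIn h.hnT h.hQT (isClassFunction_of_irr φ.2)
  have hidxT : ¬ p ∣ Q.relIndex T := fun hd => h.hidx (by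
    rw [← Subgroup.relIndex_mul_relIndex Q T K hQT hTK]
    exact hd.mul_right _)
  let W : Set Γ := {y | y ∈ K ∧ ∀ n n' : Q, (n' : Γ) = y * n * y⁻¹ →
    (φ' : Q → ℂ) n = (φ : Q → ℂ) n'}
  suffices hh : (∀ y ∈ K, y ∈ W ↔ y * (t : Γ)⁻¹ ∈ T) ∧ (∀ y ∈ W, ∀ x ∈ P, x * y * x⁻¹ ∈ W) by
    obtain ⟨y, hy, hy2⟩ := exists_fixed_coset h.hnT h.hnP hTK h.hP hidxT W (fun y hy => hy.1) t
      ⟨t.2, ht⟩ hh.1 hh.2
    exact ⟨y, (h.hD y).mpr ⟨hy.1, hy2⟩, hy.2⟩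
  refine ⟨?_, ?_⟩
  · intro y hyK
    constructor
    · rintro ⟨-, hy⟩
      refine ⟨K.mul_mem hyK (K.inv_mem t.2), fun q q' hq => ?_⟩
      let n : Q := ⟨(t : Γ)⁻¹ * q * t, by simpa using h.hnT (t : Γ)⁻¹ (K.inv_mem t.2) q q.2⟩
      have e1 := ht n q (by simp [n, mul_assoc])
      have e2 := hy n q' (by rw [hq]; simp [n, mul_assoc])
      rw [← e1, ← e2]
    · rintro ⟨-, hy⟩
      refine ⟨hyK, fun n n' hn => ?_⟩
      let q : Q := ⟨(t : Γ) * n * (t : Γ)⁻¹, h.hnT t t.2 n n.2⟩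
      have e1 := ht n q rfl
      have e2 := hy q n' (by rw [hn]; simp [q, mul_assoc])
      rw [e1, e2]
  · rintro y ⟨hyK, hy⟩ x hx
    refine ⟨h.hTP x hx y hyK, fun n n' hn => ?_⟩
    have hx' : x⁻¹ ∈ P := P.inv_mem hx
    let n₁ : Q := ⟨x⁻¹ * n * x, by simpa using h.hnP x⁻¹ hx' n n.2⟩
    let n₂ : Q := ⟨y * n₁ * y⁻¹, h.hnT y hyK n₁ n₁.2⟩
    have e1 : (φ' : Q → ℂ) n₁ = (φ' : Q → ℂ) n := hφ' x⁻¹ hx' n n₁ (by simp [n₁])
    have e2 := hy n₁ n₂ rfl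
    have e3 : (φ : Q → ℂ) n' = (φ : Q → ℂ) n₂ := hφ x hx n₂ n' (by
      rw [hn]; simp [n₂, n₁, mul_assoc])
    rw [← e1, e2, e3]

/-- lying over is invariant under conjugation in `C` -/
theorem over_of_conj [Fintype C] [Fintype Q] (h : RQ K C Q P p) (ξ : IrrCharacter C)
    (φ φ' : IrrCharacter Q) (y : Γ) (hy : y ∈ C)
    (hc : ∀ n n' : Q, (n' : Γ) = y * n * y⁻¹ → (φ' : Q → ℂ) n = (φ : Q → ℂ) n')
    (h2 : classInner (resTo h.hQD (ξ : C → ℂ)) (φ' : Q → ℂ) ≠ 0) :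
    classInner (resTo h.hQD (ξ : C → ℂ)) (φ : Q → ℂ) ≠ 0 := by
  have hf : SInv Q C (resTo h.hQD (ξ : C → ℂ)) := by
    intro c hc n n' hn
    have h1 := isClassFunction_of_irr ξ.2 ⟨n, h.hQD n.2⟩ ⟨c, hc⟩
    rw [resTo_apply, resTo_apply, ← h1]
    exact congrArg (ξ : C → ℂ) (Subtype.ext hn)
  have e : φ' = irrConj h.nrmQD ⟨y⁻¹, C.inv_mem hy⟩ φ := by
    apply Subtype.ext
    funext n
    rw [irrConj_apply]
    exact hc n _ (by rw [cjEquiv_symm_coe]; simp)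
  rw [e, Helper10.classInner_irrConj h.nrmQD hf] at h2
  exact h2

theorem glob1 [Finite Γ] [Fact p.Prime] [Fintype K] [Fintype C] [Fintype Q] (h : RQ K C Q P p)
    (hQp : IsPGroup p Q) (χ : IrrCharacter K) (hχ : SInv K P (χ : K → ℂ)) :
    ∃ ξ : IrrCharacter C, SInv C P (ξ : C → ℂ) ∧
      (∃ m : ℕ, classInner (resTo h.hDT (χ : K → ℂ)) (ξ : C → ℂ) = m ∧
        ((m : ℤ) ≡ 1 [ZMOD p] ∨ (m : ℤ) ≡ -1 [ZMOD p])) ∧
      ∀ ξ' : IrrCharacter C, SInv C P (ξ' : C → ℂ) → ξ' ≠ ξ →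
        ∀ m' : ℕ, classInner (resTo h.hDT (χ : K → ℂ)) (ξ' : C → ℂ) = m' → p ∣ m' := by
  classical
  obtain ⟨φ, hφ1, hφ2⟩ := h.exists_inv_K χ hχ
  obtain ⟨ξ, hξ1, hξ2, hξ3, hξ4⟩ := (h.loc hQp φ hφ2).1 χ hφ1 hχ
  refine ⟨ξ, hξ2, hξ3, fun ξ' hξ' hne m' hm' => ?_⟩
  by_cases h0 : m' = 0
  · rw [h0]; exact dvd_zero p
  obtain ⟨φ', hφ'1, hφ'2⟩ := h.exists_inv_C ξ' hξ'
  have hov : classInner (resTo h.hQT (χ : K → ℂ)) (φ' : Q → ℂ) ≠ 0 := by
    refine over_trans h.hQD h.hDT χ ξ' φ' ?_ hφ'1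
    rw [hm']
    exact_mod_cast h0
  obtain ⟨y, hy, hc⟩ := h.conj_in_C χ φ φ' hφ2 hφ'2 hφ1 hov
  exact hξ4 ξ' (h.over_of_conj ξ' φ φ' y hy hc hφ'1) hne m' hm'

theorem glob2 [Finite Γ] [Fact p.Prime] [Fintype K] [Fintype C] [Fintype Q] (h : RQ K C Q P p)
    (hQp : IsPGroup p Q) (ξ : IrrCharacter C) (hξ : SInv C P (ξ : C → ℂ)) :
    ∃ χ : IrrCharacter K, SInv K P (χ : K → ℂ) ∧
      ∃ m : ℕ, classInner (resTo h.hDT (χ : K → ℂ)) (ξ : C → ℂ) = m ∧ ¬ p ∣ m := by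
  obtain ⟨φ, hφ1, hφ2⟩ := h.exists_inv_C ξ hξ
  exact (h.loc hQp φ hφ2).2.1 ξ hφ1

theorem glob3 [Finite Γ] [Fact p.Prime] [Fintype K] [Fintype C] [Fintype Q] (h : RQ K C Q P p)
    (hQp : IsPGroup p Q) (ξ : IrrCharacter C) (hξ : SInv C P (ξ : C → ℂ))
    (χ₁ χ₂ : IrrCharacter K) (h₁ : SInv K P (χ₁ : K → ℂ)) (h₂ : SInv K P (χ₂ : K → ℂ))
    (m₁ m₂ : ℕ) (hm₁ : classInner (resTo h.hDT (χ₁ : K → ℂ)) (ξ : C → ℂ) = m₁) (hp₁ : ¬ p ∣ m₁)
    (hm₂ : classInner (resTo h.hDT (χ₂ : K → ℂ)) (ξ : C → ℂ) = m₂) (hp₂ : ¬ p ∣ m₂) : χ₁ = χ₂ := by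
  obtain ⟨φ, hφ1, hφ2⟩ := h.exists_inv_C ξ hξ
  exact (h.loc hQp φ hφ2).2.2 ξ hφ1 χ₁ χ₂ h₁ h₂ m₁ m₂ hm₁ hp₁ hm₂ hp₂

/-- the degree congruence -/
theorem deg [Finite Γ] [Fact p.Prime] [Fintype K] [Fintype C] (h : RQ K C Q P p)
    (χ : IrrCharacter K) (hχ : SInv K P (χ : K → ℂ)) (ξ : IrrCharacter C)
    (hξ : SInv C P (ξ : C → ℂ)) (m : ℕ)
    (hm : classInner (resTo h.hDT (χ : K → ℂ)) (ξ : C → ℂ) = m)
    (hoth : ∀ ξ' : IrrCharacter C, SInv C P (ξ' : C → ℂ) → ξ' ≠ ξ →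
        ∀ m' : ℕ, classInner (resTo h.hDT (χ : K → ℂ)) (ξ' : C → ℂ) = m' → p ∣ m') :
    (charDegree (χ : K → ℂ) : ZMod p) = (m : ZMod p) * (charDegree (ξ : C → ℂ) : ZMod p) := by
  classical
  obtain ⟨M, hM⟩ := Helper23.exists_isPModular p Fact.out
  haveI := isPrime_of_isPModular hM
  have hne := ne_top_of_isPModular hM
  choose a ha using fun β : IrrCharacter C => GP.exists_mult h.hDT χ β
  letI := irrAct h.nrmD
  have hfix := memLocalIdeal_sum_sub_sum_fixed (P := P) (X := IrrCharacter C) hM h.hP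
    (fun β => ((a β * charDegree (β : C → ℂ) : ℕ) : ℂ)) ?_ (fun β => memLocalRing_natCast hne _)
  · have e1 : ∑ β : IrrCharacter C, ((a β * charDegree (β : C → ℂ) : ℕ) : ℂ) =
        (charDegree (χ : K → ℂ) : ℂ) := by
      rw [Helper23.charDegree_cast_irr, GP.apply_one_eq_sum h.hDT χ]
      refine Finset.sum_congr rfl fun β _ => ?_
      rw [ha, ← Helper23.charDegree_cast_irr]
      push_cast
      ring
    have hξmem : ξ ∈ Finset.univ.filter (fun β : IrrCharacter C => ∀ g : P, g • β = β) := by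
      rw [Finset.mem_filter]
      exact ⟨Finset.mem_univ _, (sInv_iff_irrConj h.nrmD ξ).mp hξ⟩
    have e2 : MemLocalIdeal M
        (∑ β ∈ (Finset.univ.filter (fun β : IrrCharacter C => ∀ g : P, g • β = β)).erase ξ,
          ((a β * charDegree (β : C → ℂ) : ℕ) : ℂ)) := by
      refine memLocalIdeal_sum _ _ fun β hβ => ?_
      rw [Finset.mem_erase, Finset.mem_filter] at hβ
      rw [memLocalIdeal_natCast_iff hM]
      exact (hoth β ((sInv_iff_irrConj h.nrmD β).mpr hβ.2.2) hβ.1 (a β) (ha β)).mul_right _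
    rw [e1, ← Finset.add_sum_erase _ _ hξmem] at hfix
    have e3 := memLocalIdeal_add hfix e2
    have ham : a ξ = m := by
      have := (ha ξ).symm.trans hm
      exact_mod_cast this
    have e4 : ((charDegree (χ : K → ℂ) : ℂ) - (((a ξ * charDegree (ξ : C → ℂ) : ℕ) : ℂ) +
        ∑ β ∈ (Finset.univ.filter (fun β : IrrCharacter C => ∀ g : P, g • β = β)).erase ξ,
          ((a β * charDegree (β : C → ℂ) : ℕ) : ℂ))) +
        ∑ β ∈ (Finset.univ.filter (fun β : IrrCharacter C => ∀ g : P, g • β = β)).erase ξ,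
          ((a β * charDegree (β : C → ℂ) : ℕ) : ℂ) =
        (((charDegree (χ : K → ℂ) : ℤ) - (m * charDegree (ξ : C → ℂ) : ℕ) : ℤ) : ℂ) := by
      rw [ham]
      push_cast
      ring
    rw [e4, memLocalIdeal_intCast_iff hM] at e3
    have e5 := (ZMod.intCast_zmod_eq_zero_iff_dvd _ p).mpr e3
    push_cast at e5
    exact sub_eq_zero.mp e5
  · intro g β
    have e1 : a (g • β) = a β := by
      have h1 : classInner (resTo h.hDT (χ : K → ℂ)) (irrConj h.nrmD g β : C → ℂ) =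
          classInner (resTo h.hDT (χ : K → ℂ)) (β : C → ℂ) := by
        refine Helper10.classInner_irrConj h.nrmD ?_ g β
        intro x hx c c' hc
        exact hχ x hx ⟨c, h.hDT c.2⟩ ⟨c', h.hDT c'.2⟩ hc
      have h2 : (a (g • β) : ℂ) = a β := by
        rw [← ha, ← ha]
        exact h1
      exact_mod_cast h2
    have e2 : charDegree ((g • β : IrrCharacter C) : C → ℂ) = charDegree (β : C → ℂ) := by
      unfold charDegree
      have : ((g • β : IrrCharacter C) : C → ℂ) 1 = (β : C → ℂ) 1 := by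
        change (β : C → ℂ) ((cjEquiv h.nrmD g).symm 1) = _
        rw [map_one]
      rw [this]
    beta_reduce
    rw [e1, e2]

end RQ

end Cfsg.Agent.Lib.Helper2
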